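import Cfsg.Agent.StdZ.Ex
import Cfsg.Agent.Bt.Enum

/-! Standard subgroups with centre of even order: frames and pairs. -/

set_option autoImplicit false

namespace CF.Ec

open Cfsg Subgroup CF.Loc CF.StdZ

variable {G S Γ : Type*} [Group G] [Group S] [Group Γ]

/-- generated by the solutions of `d ^ p = 1` that commute with `x` -/
def Y (p : ℕ) (x : S) : Subgroup S := closure {d | Commute d x ∧ d ^ p = 1}

theorem mem_Y {p : ℕ} {x d : S} (c : Commute d x) (e : d ^ p = 1) : d ∈ Y p x := subset_closure ⟨c, e⟩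

theorem Y_le {p : ℕ} {x : S} : Y p x ≤ centralizer {x} :=
  (closure_le _).2 fun _ h => mem_centralizer_singleton_iff.2 h.1

theorem Y_comm {p : ℕ} {x d : S} (h : d ∈ Y p x) : Commute d x := mem_centralizer_singleton_iff.1 (Y_le h)

theorem Y_conj {p : ℕ} {x d : S} (h : d ∈ Y p x) (g : S) : g * d * g⁻¹ ∈ Y p (g * x * g⁻¹) := by
  induction h using closure_induction with
  | mem d hd => exact mem_Y (hd.1.conj g) (by rw [conj_pow, hd.2]; simp)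
  | one => simp
  | mul x y _ _ a b => rw [← conj_mul]; exact mul_mem a b
  | inv x _ a => rw [← conj_inv]; exact inv_mem a

theorem syl_p [Finite S] {H : Subgroup S} {p : ℕ} (hp : p.Prime) (n : ¬ p ^ 2 ∣ Nat.card H) {x y : S} (hx : x ∈ H)
    (x1 : x ≠ 1) (xp : x ^ p = 1) (hy : y ∈ H) (yp : y ^ p = 1) : ∃ g ∈ H, g * y * g⁻¹ ∈ zpowers x := by
  have := Fact.mk hp
  obtain ⟨m, e⟩ := card_dvd_of_le (zpowers_le.2 hx)
  refine Bt.exists_conj_mem (zpowers_le.2 hx) hp e (fun ⟨k, d⟩ => n ⟨k, ?_⟩) hy (a := 1) (by rwa [pow_one])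
  rw [e, d, Nat.card_zpowers, orderOf_eq_prime xp x1]; ring

/-- the local datum of a class -/
structure Cd (r p : ℕ) (x : S) : Prop where
  pp : p.Prime
  co : p.Coprime (2 * r)
  sy : ¬ p ^ 2 ∣ Nat.card (centralizer {x})
  bad : ∃ u ∈ Y p x, u * u = 1 ∧ u ≠ 1 ∧ ∃ y, y ^ p = 1 ∧ Commute y u ∧ ¬ Commute y x

/-- the model: `ψ` is the double cover, `a` and `b` represent the inner involutions -/
structure Md (S Γ : Type*) [Group S] [Group Γ] where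
  r : ℕ
  p : ℕ
  p' : ℕ
  ψ : Γ →* S
  a : S
  b : S
  r13 : r = 1 ∨ r = 3
  i2 : ∀ x y, x ∉ ψ.range → y ∉ ψ.range → x * y ∈ ψ.range
  kψ : ∀ c, ψ c = 1 → c * c = 1 ∧ ∀ x, Commute c x
  aa : a * a = 1
  bb : b * b = 1
  aS : a ∈ ψ.range
  oa : ∃ o ∉ ψ.range, Commute o a
  ob : ∃ o ∉ ψ.range, Commute o b
  cl : ∀ v, v * v = 1 → v ≠ 1 → IsConj a v ∨ IsConj b v ∨ v ∉ ψ.range ∧ (∃ n, IsConj b n ∧ Commute n v) ∧
    ∃ q, q.Coprime (2 * r) ∧ ∃ u ∈ Y q v, u * u = 1 ∧ u ≠ 1 ∧ IsConj v (v * u)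
  cb : ∃ β, ψ β = b ∧ β * β ≠ 1
  da : Cd r p a
  db : Cd r p' b
  za : ∀ n, (∀ d, d ^ p = 1 → Commute d a → Commute n d) → n = 1 ∨ n = a
  zb : ∀ n, Commute n b → (∀ d, d ^ p' = 1 → Commute d b → Commute n d) → n * n ≠ b
  rb : ∃ u ∈ Y p a, IsConj b u

namespace Md

variable (M : Md S Γ)

/-- the inner elements -/
abbrev S0 : Subgroup S := M.ψ.range

theorem ro : Odd M.r := by rcases M.r13 with e | e <;> rw [e] <;> decide

theorem c5 : Nat.Coprime 5 (2 * M.r) := by rcases M.r13 with e | e <;> rw [e] <;> decide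

theorem sq (s : S) : s * s ∈ M.S0 := (em (s ∈ M.S0)).elim (fun m => mul_mem m m) fun m => M.i2 s s m m

theorem nS {x : S} (h : x ∈ M.S0) (g : S) : g * x * g⁻¹ ∈ M.S0 := by
  by_cases n : g ∈ M.S0
  · exact mul_mem (mul_mem n h) (inv_mem n)
  · exact M.i2 _ _ (fun k => n ((mul_mem_cancel_right h).1 k)) fun k => n (inv_mem_iff.1 k)

theorem odd_mem {s : S} {m : ℕ} (o : Odd m) (e : s ^ m = 1) : s ∈ M.S0 := by
  obtain ⟨j, rfl⟩ := o
  have := pow_mem (M.sq s) (j + 1)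
  rwa [← pow_two, ← pow_mul, show 2 * (j + 1) = 2 * j + 1 + 1 by ring, pow_succ, e, one_mul] at this

theorem odd_of {m : ℕ} (c : m.Coprime (2 * M.r)) : Odd m := (Nat.Coprime.coprime_mul_right_right c).odd_of_right

theorem Y_S {q : ℕ} (c : q.Coprime (2 * M.r)) {x : S} : Y q x ≤ M.S0 :=
  (closure_le _).2 fun _ h => M.odd_mem (M.odd_of c) h.2

theorem conj0 {x v : S} (o : ∃ o ∉ M.S0, Commute o x) (h : IsConj x v) : ∃ g ∈ M.S0, g * v * g⁻¹ = x := by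
  obtain ⟨g, e⟩ := isConj_iff.1 h.symm
  obtain ⟨o, o1, o2⟩ := o
  by_cases n : g ∈ M.S0
  · exact ⟨g, n, e⟩
  · exact ⟨o * g, M.i2 _ _ o1 n, by rw [← conj_conj', e, conj_of_comm o2.symm]⟩

theorem mem_of {x v : S} (m : x ∈ M.S0) (h : IsConj x v) : v ∈ M.S0 := by
  obtain ⟨g, rfl⟩ := isConj_iff.1 h
  exact M.nS m g

theorem bS : M.b ∈ M.S0 := M.cb.elim fun β h => ⟨β, h.1⟩

theorem cl0 {v : S} (m : v ∈ M.S0) (vv : v * v = 1) (v1 : v ≠ 1) : IsConj M.a v ∨ IsConj M.b v :=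
  (M.cl v vv v1).imp_right fun h => h.resolve_right fun h => h.1 m

theorem eq_mul {x y : Γ} (e : M.ψ x = M.ψ y) : ∃ c, y = x * c ∧ c * c = 1 ∧ ∀ w, Commute c w :=
  ⟨x⁻¹ * y, by group, M.kψ _ (by rw [map_mul, map_inv, e, inv_mul_cancel])⟩

theorem sq_eq {x y : Γ} (e : M.ψ x = M.ψ y) : x * x = y * y := by
  obtain ⟨c, rfl, a, b⟩ := M.eq_mul e
  rw [mul_assoc, ← mul_assoc c, (b x).eq, mul_assoc, a, mul_one]

theorem cj_eq {x y : Γ} (e : M.ψ x = M.ψ y) (w : Γ) : x * w * x⁻¹ = y * w * y⁻¹ := by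
  obtain ⟨c, rfl, -, b⟩ := M.eq_mul e
  rw [← conj_conj', conj_of_comm (b w).symm]

end Md

theorem conj_sq {x v : S} (h : IsConj x v) (e : x * x = 1) : v * v = 1 := by
  obtain ⟨g, rfl⟩ := isConj_iff.1 h
  rw [conj_mul, e]; simp

theorem p8 {v : S} (e : v * v = 1) : v ^ 8 = 1 := by rw [show 8 = 2 * 4 by rfl, pow_mul, pow_two, e, one_pow]

theorem p16 {v : S} (e : v * v = 1) : v ^ 16 = 1 := by rw [show 16 = 2 * 8 by rfl, pow_mul, pow_two, e, one_pow]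

/-- a frame -/
structure Fr (M : Md S Γ) (F : Dt G S) : Prop where
  oz : orderOf F.z = 2
  zL : F.z ∈ F.L
  zK : F.z ∈ F.K
  memK : ∀ {k}, k ∈ F.K ↔ ∀ l ∈ F.L, Commute l k
  LK : ∀ {x}, x ∈ F.L → x ∈ F.K → x ^ M.r = 1 ∨ x ^ M.r = F.z
  mul : ∀ {a b}, Commute F.z a → Commute F.z b → F.π (a * b) = F.π a * F.π b
  ker : ∀ {x}, Commute F.z x → (F.π x = 1 ↔ x ∈ F.K)
  im : ∀ s ∈ M.S0, ∃ l ∈ F.L, F.π l = s
  nL : ∀ {c l}, Commute F.z c → l ∈ F.L → c * l * c⁻¹ ∈ F.L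
  te : ∀ {s g}, s ∈ F.K → orderOf s = 2 → g * s * g⁻¹ ∈ F.K → Commute F.z g
  cov : ∃ ρ : G → Γ, (∀ {a b}, a ∈ F.L → b ∈ F.L → ρ (a * b) = ρ a * ρ b) ∧ ∀ {l}, l ∈ F.L → M.ψ (ρ l) = F.π l

namespace Fr

variable {M : Md S Γ} {F : Dt G S} (h : Fr M F)
include h

theorem zz : F.z * F.z = 1 := sq_of h.oz

theorem z1 : F.z ≠ 1 := ne_of h.oz

theorem zi : F.z⁻¹ = F.z := inv_eq_of_mul_eq_one_right h.zz

theorem mem {l : G} (hl : l ∈ F.L) : F.π l ∈ M.S0 := h.cov.elim fun ρ k => ⟨ρ l, k.2 hl⟩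

theorem cLK {l k : G} (hl : l ∈ F.L) (hk : k ∈ F.K) : Commute l k := h.memK.1 hk l hl

theorem cL {l : G} (hl : l ∈ F.L) : Commute F.z l := (h.cLK hl h.zK).symm

theorem cK {k : G} (hk : k ∈ F.K) : Commute F.z k := h.cLK h.zL hk

theorem πK {k : G} (hk : k ∈ F.K) : F.π k = 1 := (h.ker (h.cK hk)).2 hk

theorem one : F.π 1 = 1 := h.πK (one_mem _)

theorem πz : F.π F.z = 1 := h.πK h.zK

theorem inv {a : G} (ha : Commute F.z a) : F.π a⁻¹ = (F.π a)⁻¹ :=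
  eq_inv_of_mul_eq_one_left (by rw [← h.mul ha.inv_right ha, inv_mul_cancel, h.one])

theorem pow {a : G} (ha : Commute F.z a) (n : ℕ) : F.π (a ^ n) = F.π a ^ n := by
  induction n with
  | zero => simpa using h.one
  | succ n ih => rw [pow_succ, h.mul (ha.pow_right n) ha, ih, pow_succ]

theorem conj {a b : G} (ha : Commute F.z a) (hb : Commute F.z b) :
    F.π (a * b * a⁻¹) = F.π a * F.π b * (F.π a)⁻¹ := by
  rw [h.mul (ha.mul_right hb) ha.inv_right, h.mul ha hb, h.inv ha]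

theorem comm {a b : G} (ha : Commute F.z a) (hb : Commute F.z b) (c : Commute a b) :
    Commute (F.π a) (F.π b) := by
  show _ = _
  rw [← h.mul ha hb, c.eq, h.mul hb ha]

theorem πeq {a b : G} (ha : Commute F.z a) (hb : Commute F.z b) : F.π a = F.π b ↔ a⁻¹ * b ∈ F.K := by
  rw [← h.ker (ha.inv_right.mul_right hb), h.mul ha.inv_right hb, h.inv ha, inv_mul_eq_one]

theorem nK {c k : G} (hc : Commute F.z c) (hk : k ∈ F.K) : c * k * c⁻¹ ∈ F.K :=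
  (h.ker ((hc.mul_right (h.cK hk)).mul_right hc.inv_right)).1 (by rw [h.conj hc (h.cK hk), h.πK hk]; simp)

theorem πmK {x k : G} (hx : Commute F.z x) (hk : k ∈ F.K) : F.π (x * k) = F.π x := by
  rw [h.mul hx (h.cK hk), h.πK hk, mul_one]

theorem mL {a b : G} (ha : a ∈ F.L) (hb : b ∈ F.L) : F.π (a * b) = F.π a * F.π b := h.mul (h.cL ha) (h.cL hb)

theorem cjL {a b : G} (ha : a ∈ F.L) (hb : b ∈ F.L) : F.π (a * b * a⁻¹) = F.π a * F.π b * (F.π a)⁻¹ :=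
  h.conj (h.cL ha) (h.cL hb)

theorem z6 {x : G} (a : x ∈ F.L) (b : x ∈ F.K) : x ^ (2 * M.r) = 1 := by
  rw [mul_comm, pow_mul, pow_two]
  rcases h.LK a b with e | e <;> rw [e]
  exacts [one_mul _, h.zz]

theorem two {x : G} (a : x ∈ F.L) (b : x ∈ F.K) (e : x ^ 16 = 1) : x = 1 ∨ x = F.z := by
  have k : ∀ {y : G}, y ^ M.r = 1 → y ^ 16 = 1 → y = 1 := fun c d => eq_one_of_odd (k := 4)
    (M.ro.of_dvd_nat (orderOf_dvd_of_pow_eq_one c)) d
  refine (h.LK a b).imp (k · e) fun c => ?_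
  rw [← h.zi, ← mul_eq_one_iff_eq_inv]
  exact k (by rw [(h.cL a).symm.mul_pow, c, pow_odd h.zz M.ro, h.zz]) (by
    rw [(h.cL a).symm.mul_pow, e, p16 h.zz, one_mul])

theorem eqc {a b : G} (ha : a ∈ F.L) (hb : b ∈ F.L) (e : F.π a = F.π b) : ∃ c ∈ F.L, c ∈ F.K ∧ b = a * c :=
  ⟨_, mul_mem (inv_mem ha) hb, (h.πeq (h.cL ha) (h.cL hb)).1 e, by group⟩

theorem eq2 {a b : G} (ha : a ∈ F.L) (hb : b ∈ F.L) (e : F.π a = F.π b) (a2 : a ^ 16 = 1) (b2 : b ^ 16 = 1) :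
    b = a ∨ b = a * F.z := by
  obtain ⟨c, c1, c2, rfl⟩ := h.eqc ha hb e
  rw [(h.cLK ha c2).mul_pow, a2, one_mul] at b2
  rcases h.two c1 c2 b2 with rfl | rfl
  exacts [.inl (mul_one _), .inr rfl]

theorem eqp {a b : G} (ha : a ∈ F.L) (hb : b ∈ F.L) (e : F.π a = F.π b) {m : ℕ} (co : m.Coprime (2 * M.r))
    (a2 : a ^ m = 1) (b2 : b ^ m = 1) : b = a := by
  obtain ⟨c, c1, c2, rfl⟩ := h.eqc ha hb e
  rw [(h.cLK ha c2).mul_pow, a2, one_mul] at b2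
  rw [orderOf_eq_one_iff.1 (Nat.eq_one_of_dvd_coprimes co (orderOf_dvd_of_pow_eq_one b2)
    (orderOf_dvd_of_pow_eq_one (h.z6 c1 c2))), mul_one]

theorem liftp {s : S} {m : ℕ} (co : m.Coprime (2 * M.r)) (e : s ^ m = 1) : ∃ l ∈ F.L, F.π l = s ∧ l ^ m = 1 := by
  obtain ⟨l, hl, rfl⟩ := h.im s (M.odd_mem (M.odd_of co) e)
  obtain ⟨n, n1, n2⟩ := Nat.chineseRemainder co 1 0
  obtain ⟨j, rfl⟩ := Nat.modEq_zero_iff_dvd.1 n2
  refine ⟨_, pow_mem hl (2 * M.r * j), ?_, ?_⟩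
  · rw [h.pow (h.cL hl), pow_eq_pow_of_modEq n1 e, pow_one]
  · rw [← pow_mul, mul_comm, pow_mul, pow_mul, h.z6 (pow_mem hl m)
      ((h.ker ((h.cL hl).pow_right m)).1 (by rw [h.pow (h.cL hl), e])), one_pow]

theorem commp {l c : G} (hl : l ∈ F.L) (hc : Commute F.z c) (k : Commute (F.π l) (F.π c)) {m : ℕ}
    (co : m.Coprime (2 * M.r)) (e : l ^ m = 1) : Commute l c :=
  comm_of_conj (h.eqp hl (h.nL hc hl) (by rw [h.conj hc (h.cL hl), conj_of_comm k]) co e (by rw [conj_pow, e]; simp))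

theorem nine {l : G} (hl : l ∈ F.L) (e : F.π l ^ 8 = 1) : F.π (l ^ 9) = F.π l ∧ (l ^ 9) ^ 16 = 1 := by
  refine ⟨by rw [h.pow (h.cL hl), pow_succ, e, one_mul], ?_⟩
  have := h.z6 (pow_mem hl 8) ((h.ker ((h.cL hl).pow_right 8)).1 (by rw [h.pow (h.cL hl), e]))
  rw [← pow_mul] at this ⊢
  refine orderOf_dvd_iff_pow_eq_one.1 ((orderOf_dvd_of_pow_eq_one this).trans ?_)
  rcases M.r13 with e | e <;> rw [e] <;> decide

theorem lift2 {s : S} (m : s ∈ M.S0) (e : s ^ 8 = 1) : ∃ l ∈ F.L, F.π l = s ∧ l ^ 16 = 1 := by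
  obtain ⟨l, hl, rfl⟩ := h.im s m
  exact ⟨_, pow_mem hl 9, h.nine hl e⟩

theorem sq2 {l : G} (hl : l ∈ F.L) (e : F.π l * F.π l = 1) (l2 : l ^ 16 = 1) : l * l = 1 ∨ l * l = F.z :=
  h.two (mul_mem hl hl) ((h.ker (h.cL (mul_mem hl hl))).1 ((h.mL hl hl).trans e)) (by
    rw [← pow_two, ← pow_mul, mul_comm, pow_mul, l2, one_pow])

theorem up {v : G} (hv : v ∈ F.L) {x : S} (o : ∃ o ∉ M.S0, Commute o x) (c : IsConj x (F.π v)) :
    ∃ l ∈ F.L, F.π (l * v * l⁻¹) = x := by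
  obtain ⟨g, m, e⟩ := M.conj0 o c
  obtain ⟨l, hl, rfl⟩ := h.im g m
  exact ⟨l, hl, (h.cjL hl hv).trans e⟩

theorem sqb {l : G} (hl : l ∈ F.L) (c : IsConj M.b (F.π l)) (l2 : l ^ 16 = 1) : l * l = F.z := by
  refine (h.sq2 hl (conj_sq c M.bb) l2).resolve_left fun e => ?_
  obtain ⟨g, hg, k⟩ := h.up hl M.ob c
  obtain ⟨ρ, r1, r2⟩ := h.cov
  obtain ⟨β, b1, b2⟩ := M.cb
  have m := h.nL (h.cL hg) hl
  refine b2 ?_
  rw [M.sq_eq (b1.trans (k.symm.trans (r2 m).symm)), ← r1 m m, conj_mul, e, mul_one, mul_inv_cancel]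
  exact mul_left_cancel (a := ρ 1) (by rw [← r1 (one_mem _) (one_mem _), mul_one, mul_one])

theorem cj (g : G) : Fr M (F.cj g) where
  oz := (ord_cj _ _).trans h.oz
  zL := conj_mem_cj g h.zL
  zK := conj_mem_cj g h.zK
  memK := fun {k} => by
    refine mem_cj.trans (h.memK.trans ⟨fun a l hl => ?_, fun a l hl => comm_cj.1 (a _ (conj_mem_cj g hl))⟩)
    have := comm_cj.2 (a _ (mem_cj.1 hl))
    simpa [mul_assoc] using this
  LK := fun {x} a b => by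
    have e : (g⁻¹ * x * g) ^ M.r = g⁻¹ * x ^ M.r * g := by simpa using conj_pow (a := g⁻¹) (b := x) (i := M.r)
    refine (e ▸ h.LK (mem_cj.1 a) (mem_cj.1 b)).imp one_of_cj fun e => ?_
    show _ = g * F.z * g⁻¹
    rw [← e]; group
  mul := fun {a b} ha hb => by
    show F.π _ = F.π _ * F.π _
    rw [← h.mul (comm_cj.1 ha) (comm_cj.1 hb)]
    congr 1; group
  ker := fun {x} hx => (h.ker (comm_cj.1 hx)).trans mem_cj.symm
  im := fun s hs => by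
    obtain ⟨l, hl, e⟩ := h.im s hs
    refine ⟨_, conj_mem_cj g hl, ?_⟩
    show F.π _ = _
    rw [← e]; congr 1; group
  nL := fun {c l} hc hl => mem_cj.2 (by
    have := h.nL (comm_cj.1 hc) (mem_cj.1 hl)
    simpa [mul_assoc] using this)
  te := fun {s x} a b c => comm_cj.2 (h.te (mem_cj.1 a) (by
      rw [← b]; simpa using ord_cj g⁻¹ s) (by
    have := mem_cj.1 c
    simpa [mul_assoc] using this))
  cov := by
    obtain ⟨ρ, a, b⟩ := h.cov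
    refine ⟨fun x => ρ (g⁻¹ * x * g), fun c d => ?_, fun c => b (mem_cj.1 c)⟩
    show ρ _ = ρ _ * ρ _
    rw [← a (mem_cj.1 c) (mem_cj.1 d)]
    congr 1; group

theorem cj_self {g : G} (hg : Commute F.z g) : (F.cj g).z = F.z ∧ (F.cj g).L = F.L ∧ (F.cj g).K = F.K := by
  refine ⟨conj_of_comm hg, ?_⟩
  constructor <;> ext x <;> refine mem_cj.trans ⟨fun a => ?_, fun a => ?_⟩
  · simpa [mul_assoc] using h.nL hg a
  · simpa using h.nL hg.inv_right a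
  · simpa [mul_assoc] using h.nK hg a
  · simpa using h.nK hg.inv_right a

theorem cj_π {g x : G} (hg : Commute F.z g) (hx : Commute F.z x) :
    (F.cj g⁻¹).π x = F.π g * F.π x * (F.π g)⁻¹ := by
  rw [← h.conj hg hx]; simp [Dt.cj]

end Fr

end CF.Ec
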