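import Cfsg.Agent.Ec.A

/-! Pairs of frames: the types of the two involutions. -/

set_option autoImplicit false

namespace CF.Ec

open Cfsg Subgroup CF.Loc CF.StdZ

variable {G S Γ : Type*} [Group G] [Group S] [Group Γ] {M : Md S Γ}

/-- the frame with twisted action -/
def tw (F : Dt G S) (s : S) : Dt G S := ⟨F.z, F.L, F.K, fun x => s * F.π x * s⁻¹⟩

theorem Fr.tw {F : Dt G S} (h : Fr M F) {s : S} (m : s ∈ M.S0) : Fr M (tw F s) where
  oz := h.oz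
  zL := h.zL
  zK := h.zK
  memK := h.memK
  LK := h.LK
  mul := fun a b => (congrArg (s * · * s⁻¹) (h.mul a b)).trans conj_mul.symm
  ker := fun a => conj_eq_one_iff.trans (h.ker a)
  im := fun x hx => (h.im _ (M.nS hx s⁻¹)).imp fun l k => ⟨k.1, by
    show s * F.π l * s⁻¹ = x
    rw [k.2]; group⟩
  nL := h.nL
  te := h.te
  cov := by
    obtain ⟨ρ, a, b⟩ := h.cov
    obtain ⟨γ, rfl⟩ := m
    exact ⟨fun x => γ * ρ x * γ⁻¹, fun c d => (congrArg (γ * · * γ⁻¹) (a c d)).trans conj_mul.symm, fun c => by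
      rw [map_mul, map_mul, map_inv, b c]; rfl⟩

/-- a pair of conjugate frames with distinct commuting involutions -/
structure Pr (M : Md S Γ) (F E : Dt G S) : Prop where
  fr : Fr M F
  fe : Fr M E
  cj : ∃ g, E.z = g * F.z * g⁻¹ ∧ E.K = cj[g] F.K
  cm : Commute F.z E.z
  ne : E.z ≠ F.z

theorem Fr.pr {F : Dt G S} (h : Fr M F) {g : G} (c : Commute F.z (g * F.z * g⁻¹))
    (n : g * F.z * g⁻¹ ≠ F.z) : Pr M F (F.cj g) := ⟨h, h.cj g, ⟨g, rfl, rfl⟩, c, n⟩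

namespace Pr

variable {F E : Dt G S} (h : Pr M F E)
include h

theorem symm : Pr M E F :=
  ⟨h.fe, h.fr, h.cj.elim fun g e => ⟨g⁻¹, by rw [e.1]; group, by rw [e.2, ← cj_mul, inv_mul_cancel, cj_one]⟩,
    h.cm.symm, h.ne.symm⟩

theorem tw {s : S} (m : s ∈ M.S0) : Pr M (tw F s) E := ⟨h.fr.tw m, h.fe, h.cj, h.cm, h.ne⟩

theorem no_inv {s : G} (a : s ∈ F.K) (b : s ∈ E.K) : orderOf s ≠ 2 := fun o => by
  obtain ⟨g, e, k⟩ := h.cj
  have := h.fr.te a o (g := g⁻¹) (by simpa using mem_cj.1 (k ▸ b))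
  exact h.ne (e.trans (conj_of_comm (by simpa using this.inv_right)))

theorem τ1 : F.π E.z ≠ 1 := fun e => h.no_inv ((h.fr.ker h.cm).1 e) h.fe.zK h.fe.oz

theorem ττ : F.π E.z * F.π E.z = 1 := by rw [← h.fr.mul h.cm h.cm, h.fe.zz, h.fr.one]

theorem odd [Finite G] {s : G} (a : s ∈ F.K) (b : s ∈ E.K) : Odd (orderOf s) := by
  rw [← Nat.not_even_iff_odd]
  intro e
  exact h.no_inv (pow_mem a _) (pow_mem b _)
    (orderOf_pow_orderOf_div (orderOf_pos s).ne' (even_iff_two_dvd.1 e))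

/-- the image of `C_{K'}(z)` -/
def Kp : Subgroup S where
  carrier := {u | ∃ y ∈ E.K, Commute F.z y ∧ F.π y = u}
  one_mem' := ⟨1, one_mem _, Commute.one_right _, h.fr.one⟩
  mul_mem' := by
    rintro _ _ ⟨a, ha, c, rfl⟩ ⟨b, hb, d, rfl⟩
    exact ⟨a * b, mul_mem ha hb, c.mul_right d, h.fr.mul c d⟩
  inv_mem' := by
    rintro _ ⟨a, ha, c, rfl⟩
    exact ⟨a⁻¹, inv_mem ha, c.inv_right, h.fr.inv c⟩

theorem Kp_comm {u : S} (a : u ∈ h.Kp) : Commute u (F.π E.z) := by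
  obtain ⟨y, hy, c, rfl⟩ := a
  exact h.fr.comm c h.cm (h.fe.cK hy).symm

theorem liftY {q : ℕ} (co : q.Coprime (2 * M.r)) {x : S} (hx : x ∈ Y q (F.π E.z)) :
    ∃ l ∈ F.L, F.π l = x ∧ Commute E.z l ∧ E.π l ∈ M.S0 := by
  induction hx using closure_induction with
  | mem d hd =>
    obtain ⟨l, hl, rfl, e⟩ := h.fr.liftp co hd.2
    have c := (h.fr.commp hl h.cm hd.1 co e).symm
    exact ⟨l, hl, rfl, c, M.odd_mem (M.odd_of co) (by rw [← h.fe.pow c, e, h.fe.one])⟩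
  | one => exact ⟨1, one_mem _, h.fr.one, Commute.one_right _, h.fe.one ▸ one_mem _⟩
  | mul x y _ _ a b =>
    obtain ⟨l, hl, rfl, c, m⟩ := a
    obtain ⟨k, hk, rfl, d, n⟩ := b
    exact ⟨l * k, mul_mem hl hk, h.fr.mL hl hk, c.mul_right d, h.fe.mul c d ▸ mul_mem m n⟩
  | inv x _ a =>
    obtain ⟨l, hl, rfl, c, m⟩ := a
    exact ⟨l⁻¹, inv_mem hl, h.fr.inv (h.fr.cL hl), c.inv_right, h.fe.inv c ▸ inv_mem m⟩

theorem liftY2 {q : ℕ} (co : q.Coprime (2 * M.r)) {x : S} (hx : x ∈ Y q (F.π E.z)) (e : x ^ 8 = 1) :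
    ∃ l ∈ F.L, F.π l = x ∧ Commute E.z l ∧ E.π l ∈ M.S0 ∧ l ^ 16 = 1 := by
  obtain ⟨l, hl, rfl, c, m⟩ := h.liftY co hx
  obtain ⟨a, b⟩ := h.fr.nine hl e
  exact ⟨_, pow_mem hl 9, a, c.pow_right 9, h.fe.pow c 9 ▸ pow_mem m 9, b⟩

theorem Kp_conj {q : ℕ} (co : q.Coprime (2 * M.r)) {u x : S} (a : u ∈ h.Kp) (b : x ∈ Y q (F.π E.z)) :
    x * u * x⁻¹ ∈ h.Kp := by
  obtain ⟨l, hl, rfl, c, -⟩ := h.liftY co b
  obtain ⟨y, hy, k, rfl⟩ := a
  have d := h.fr.cL hl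
  exact ⟨_, h.fe.nK c hy, (d.mul_right k).mul_right d.inv_right, h.fr.conj d k⟩

variable [Finite G]

theorem eq_one {s : G} (a : s ∈ F.K) (b : s ∈ E.K) {k : ℕ} (ss : s ^ 2 ^ k = 1) : s = 1 :=
  eq_one_of_odd (h.odd a b) ss

theorem caseI {u x : S} (a : u ∈ h.Kp) (uu : u * u = 1) (u1 : u ≠ 1) {m : ℕ} (co : m.Coprime (2 * M.r))
    (e : x ^ m = 1) (b : Commute x u) : Commute x (F.π E.z) := by
  obtain ⟨y, hy, c, rfl⟩ := a
  have o := h.odd ((h.fr.ker (c.mul_right c)).1 (by rw [h.fr.mul c c, uu])) (mul_mem hy hy)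
  have p : F.π (y ^ orderOf (y * y)) = F.π y := by rw [h.fr.pow c, pow_odd uu o]
  obtain ⟨l, hl, rfl, k⟩ := h.fr.liftp co e
  have d := h.fr.commp hl (c.pow_right _) (p ▸ b) co k
  have := h.fe.te (pow_mem hy (orderOf (y * y))) (ord2 (by
    rw [← (Commute.refl y).mul_pow, pow_orderOf_eq_one]) fun e => u1 (by rw [← p, e, h.fr.one])) (g := l)
    (by rw [conj_of_comm d.symm]; exact pow_mem hy _)
  exact h.fr.comm (h.fr.cL hl) h.cm this.symm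

variable [Finite S]

theorem adm {q : ℕ} (D : Cd M.r q (F.π E.z)) {n d : S} (hn : n ∈ h.Kp) (e : d ^ q = 1) (c : Commute d (F.π E.z)) :
    Commute n d := by
  obtain ⟨x, hx, rfl, xq⟩ := h.fr.liftp D.co e
  have c1 := (h.fr.commp hx h.cm c D.co xq).symm
  obtain ⟨l, hl, k, lq⟩ := h.fe.liftp D.co (s := E.π x) (by rw [← h.fe.pow c1, xq, h.fe.one])
  have c2 := (h.fe.commp hl h.cm.symm (k ▸ h.fe.comm c1 h.cm.symm (h.fr.cL hx).symm) D.co lq).symm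
  have hk := (h.fe.πeq (h.fe.cL hl) c1).1 k
  have c3 := c2.inv_right.mul_right (h.fr.cL hx)
  have kq : (l⁻¹ * x) ^ q = 1 := by
    have := (h.fe.cLK hl hk).mul_pow q
    rwa [mul_inv_cancel_left, xq, lq, one_mul, eq_comm] at this
  by_cases e1 : F.π (l⁻¹ * x) = 1
  · obtain ⟨y, hy, cy, rfl⟩ := hn
    refine comm_of_conj ?_
    have : x * y * x⁻¹ = l⁻¹ * x * y * (l⁻¹ * x)⁻¹ := by
      rw [← conj_conj', conj_of_comm ((h.fe.cLK (inv_mem hl) (h.fe.nK c1 hy)).symm)]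
    rw [← h.fr.conj (h.fr.cL hx) cy, this, h.fr.conj c3 cy, e1]; simp
  have m : F.π (l⁻¹ * x) ∈ h.Kp := ⟨_, hk, c3, rfl⟩
  have p : F.π (l⁻¹ * x) ^ q = 1 := by rw [← h.fr.pow c3, kq, h.fr.one]
  have le : Y q (F.π E.z) ≤ h.Kp := (closure_le _).2 fun w hw => by
    obtain ⟨g, hg, a⟩ := syl_p D.pp (fun a => D.sy (a.trans (card_dvd_of_le Y_le))) (mem_Y (h.Kp_comm m) p) e1 p
      (mem_Y hw.1 hw.2) hw.2
    simpa [mul_assoc] using h.Kp_conj D.co (zpowers_le.2 m a) (inv_mem hg)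
  obtain ⟨u, hu, uu, u1, y, y1, y2, y3⟩ := D.bad
  exact absurd (h.caseI (le hu) uu u1 D.co y1 y2) y3

theorem small (e : IsConj M.a (F.π E.z)) {y : G} (hy : y ∈ E.K) (c : Commute F.z y) :
    F.π y = 1 ∨ F.π y = F.π E.z := by
  obtain ⟨s, m, k⟩ := M.conj0 M.oa e
  have k' : (Ec.tw F s).π E.z = M.a := k
  refine (M.za ((Ec.tw F s).π y) fun d a b => (h.tw m).adm (k' ▸ M.da) ⟨y, hy, c, rfl⟩ a (k' ▸ b)).imp
    conj_eq_one_iff.1 fun a => ?_
  exact mul_left_cancel (mul_right_cancel (a.trans k.symm))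

theorem no_root (i : F.π E.z ∈ M.S0) {y : G} (hy : y ∈ E.K) (c : Commute F.z y) : y * y ≠ E.z := fun e => by
  have r : F.π y * F.π y = F.π E.z := by rw [← h.fr.mul c c, e]
  rcases M.cl0 i h.ττ h.τ1 with a | a
  · rcases h.small a hy c with k | k <;> rw [k] at r
    exacts [h.τ1 (by simpa using r.symm), h.τ1 (r.symm.trans h.ττ)]
  · obtain ⟨s, m, k⟩ := M.conj0 M.ob a
    have k' : (Ec.tw F s).π E.z = M.b := k
    have n : (Ec.tw F s).π y ∈ (h.tw m).Kp := ⟨y, hy, c, rfl⟩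
    exact M.zb _ (k' ▸ (h.tw m).Kp_comm n) (fun d a b => (h.tw m).adm (k' ▸ M.db) n a (k' ▸ b))
      (conj_mul.trans (by rw [r, k]))

omit [Finite G] [Finite S] in
theorem sq_mem {y : G} (c : Commute E.z y) (e : y * y = F.z) : E.π F.z ∈ M.S0 := by
  rw [← e, h.fe.mul c c]; exact M.sq _

theorem dec (i : F.π E.z ∈ M.S0) :
    ∃ l ∈ F.L, F.π l = F.π E.z ∧ l * l = 1 ∧ ∃ k ∈ F.K, Commute E.z k ∧ k * k = 1 ∧ E.z = l * k := by
  obtain ⟨l, hl, e, l2⟩ := h.fr.lift2 i (p8 h.ττ)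
  have hk := (h.fr.πeq (h.fr.cL hl) h.cm).1 e
  have c := h.fr.cLK hl hk
  have c1 : Commute E.z (l⁻¹ * E.z) := by simpa using c.mul_left (Commute.refl _)
  have s : l * l * (l⁻¹ * E.z * (l⁻¹ * E.z)) = 1 := by
    rw [← pow_two, ← pow_two, ← c.mul_pow, mul_inv_cancel_left, pow_two, h.fe.zz]
  rcases h.fr.sq2 hl (e ▸ h.ττ) l2 with k | k <;> rw [k] at s
  · exact ⟨l, hl, e, k, _, hk, c1, by simpa using s, by simp⟩
  · have s := (eq_inv_of_mul_eq_one_right s).trans h.fr.zi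
    exact absurd s (h.symm.no_root (h.sq_mem c1 s) hk c1)

theorem not_b : ¬ IsConj M.b (F.π E.z) := fun a => by
  obtain ⟨l, hl, e, l2, -⟩ := h.dec (M.mem_of M.bS a)
  exact h.fr.z1 ((h.fr.sqb hl (e ▸ a) (p16 l2)).symm.trans l2)

theorem is_a (i : F.π E.z ∈ M.S0) : IsConj M.a (F.π E.z) := (M.cl0 i h.ττ h.τ1).resolve_right h.not_b

theorem ex_root (e : IsConj M.a (F.π E.z)) : ∃ l ∈ F.L, l * l = F.z ∧ Commute E.z l ∧ E.π l ∈ M.S0 := by
  obtain ⟨s, m, k⟩ := M.conj0 M.oa e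
  have k' : (Ec.tw F s).π E.z = M.a := k
  obtain ⟨u, hu, c⟩ := M.rb
  obtain ⟨l, hl, rfl, a, b, d⟩ := (h.tw m).liftY2 M.da.co (k' ▸ hu) (p8 (conj_sq c M.bb))
  exact ⟨l, hl, (h.fr.tw m).sqb hl c d, a, b⟩

end Pr

/-- a pair of the first kind -/
structure AA (M : Md S Γ) (F E : Dt G S) : Prop extends Pr M F E where
  ta : IsConj M.a (F.π E.z)

namespace AA

variable {F E : Dt G S} (h : AA M F E) [Finite G] [Finite S]
include h

theorem symm : AA M E F :=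
  ⟨h.toPr.symm, h.toPr.symm.is_a ((h.ex_root h.ta).elim fun _ k => h.sq_mem k.2.2.1 k.2.1)⟩

omit [Finite G] [Finite S] in
theorem tw {s : S} (m : s ∈ M.S0) : AA M (Ec.tw F s) E := ⟨h.toPr.tw m, h.ta.trans (isConj_iff.2 ⟨s, rfl⟩)⟩

omit [Finite G] [Finite S] in
theorem nm : ∃ s ∈ M.S0, (Ec.tw F s).π E.z = M.a := M.conj0 M.oa h.ta

theorem two' {k : G} (hk : k ∈ F.K) (c : Commute E.z k) {n : ℕ} (e : k ^ 2 ^ n = 1) : k = 1 ∨ k = F.z := by
  refine (h.symm.small h.symm.ta hk c).imp (fun a => h.eq_one hk ((h.fe.ker c).1 a) e) fun a => ?_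
  have := (h.fe.πeq h.cm.symm c).1 a.symm
  rw [h.fr.zi] at this
  have d := h.eq_one (mul_mem h.fr.zK hk) this (k := n + 1) (by
    rw [(h.fr.cK hk).mul_pow, pow_succ', pow_mul, pow_two, h.fr.zz, one_pow, mul_comm, pow_mul, e, one_pow, one_mul])
  rw [eq_inv_of_mul_eq_one_right d, h.fr.zi]

theorem tL : E.z ∈ F.L := by
  obtain ⟨l, hl, -, -, k, hk, c, kk, e⟩ := h.dec (M.mem_of M.aS h.ta)
  rw [e]
  rcases h.two' hk c (n := 1) (by simpa [pow_two] using kk) with rfl | rfl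
  exacts [by simpa using hl, mul_mem hl h.fr.zL]

theorem Kt {k : G} (hk : k ∈ F.K) : Commute E.z k := h.fr.cLK h.tL hk

theorem memL {x : G} (c : Commute F.z x) (i : F.π x ∈ M.S0) {n : ℕ} (e : x ^ 2 ^ n = 1) : x ∈ F.L := by
  obtain ⟨l, hl, a⟩ := h.fr.im _ i
  have hk := (h.fr.πeq (h.fr.cL hl) c).1 a
  obtain ⟨j, m, o, b⟩ := Nat.exists_eq_two_pow_mul_odd (orderOf_pos (l⁻¹ * x)).ne'
  have : x ^ m ∈ F.L := by
    have d := (h.fr.cLK hl hk).mul_pow m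
    rw [mul_inv_cancel_left] at d
    rw [d]
    refine mul_mem (pow_mem hl m) ?_
    rcases h.two' (pow_mem hk m) (h.Kt (pow_mem hk m)) (n := j)
      (by rw [← pow_mul, mul_comm m, ← b, pow_orderOf_eq_one]) with d | d <;> rw [d]
    exacts [one_mem _, h.fr.zL]
  obtain ⟨w, d⟩ := exists_pow_eq_self_of_coprime (x := x) (n := m)
    (((Nat.coprime_two_right.2 o).pow_right n).coprime_dvd_right (orderOf_dvd_of_pow_eq_one e))
  exact d ▸ pow_mem this w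

theorem sqa {l : G} (hl : l ∈ F.L) (c : IsConj M.a (F.π l)) (l2 : l ^ 16 = 1) : l * l = 1 := by
  obtain ⟨g, hg, e⟩ := h.fr.up hl M.oa c
  obtain ⟨k, hk, d⟩ := h.fr.up h.tL M.oa h.ta
  have s : k * E.z * k⁻¹ * (k * E.z * k⁻¹) = 1 := by rw [conj_mul, h.fe.zz]; simp
  have m := h.fr.nL (h.fr.cL hk) h.tL
  rw [← conj_eq_one_iff (a := g), ← conj_mul]
  rcases h.fr.eq2 m (h.fr.nL (h.fr.cL hg) hl) (d.trans e.symm) (p16 s) (by rw [conj_pow, l2]; simp) with a | a <;>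
    rw [a]
  · exact s
  · rw [← pow_two, (h.fr.cL m).symm.mul_pow, pow_two, pow_two, s, h.fr.zz, one_mul]

theorem odd_ne {d : G} (hd : d ∈ F.L) (c : Commute E.z d) {m : ℕ} (o : Odd m) (e : d ^ m = 1) (n : F.π d ≠ 1) :
    E.π d ≠ 1 := fun k => by
  have := (h.small h.ta ((h.fe.ker c).1 k) (h.fr.cL hd)).resolve_left n
  exact h.τ1 (by rw [← pow_odd h.ττ o, ← this, ← h.fr.pow (h.fr.cL hd), e, h.fr.one])

end AA

theorem outer [Finite G] [Finite S] (n : ∀ F E : Dt G S, ¬ AA M F E) {F E : Dt G S} (h : Pr M F E) : False := by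
  have o : ∀ {F E : Dt G S}, Pr M F E → F.π E.z ∉ M.S0 := fun h i => n _ _ ⟨h, h.is_a i⟩
  obtain ⟨-, ⟨v, v1, v2⟩, q, co, u, hu, uu, u1, c⟩ := ((M.cl _ h.ττ h.τ1).resolve_left
    fun a => n _ _ ⟨h, a⟩).resolve_left h.not_b
  have f := h.fr
  have cz : ∃ w, w * E.z * w⁻¹ = E.z * F.z := by
    obtain ⟨l, hl, rfl, l2⟩ := f.lift2 (M.mem_of M.bS v1) (p8 (conj_sq v1 M.bb))
    rcases f.eq2 hl (f.nL h.cm hl) (by rw [f.conj h.cm (f.cL hl), conj_of_comm v2]) l2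
      (by rw [conj_pow, l2]; simp) with e | e
    · exact absurd (h.sq_mem (comm_of_conj e).symm (f.sqb hl v1 l2)) (o h.symm)
    · refine ⟨l⁻¹, ?_⟩
      calc _ = l⁻¹ * (E.z * l * E.z⁻¹) * E.z := by group
        _ = _ := by rw [e, inv_mul_cancel_left, h.cm.eq]
  obtain ⟨x, hx, rfl, c1, i, x2⟩ := h.liftY2 co hu (p8 uu)
  obtain ⟨g, m, e⟩ := M.conj0 ⟨_, o h, Commute.refl _⟩ c
  obtain ⟨l, hl, rfl⟩ := f.im g m
  have c2 := h.cm.mul_right (f.cL hx)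
  have hk := (f.πeq h.cm ((f.cL hl).mul_right c2 |>.mul_right (f.cL hl).inv_right)).1
    (by rw [f.conj (f.cL hl) c2, f.mul h.cm (f.cL hx), e])
  set k := E.z⁻¹ * (l * (E.z * x) * l⁻¹) with hk'
  have kL : k ∈ F.L := by
    have := mul_mem (mul_mem (f.nL h.cm.inv_right hl) hx) (inv_mem hl)
    convert this using 1
    rw [hk']; group
  have e1 : l * (E.z * x) * l⁻¹ = E.z * k := by rw [hk']; group
  have s : (E.z * k) ^ 4 = 1 := by
    rw [← e1, conj_pow, c1.mul_pow, show 4 = 2 * 2 by rfl, pow_mul, pow_mul, pow_two E.z, h.fe.zz, pow_two x]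
    rcases f.sq2 hx uu x2 with a | a <;> rw [a]
    · simp
    · simp [pow_two, f.zz]
  have t2 := f.nL h.cm kL
  have t3 := f.nK h.cm hk
  have s2 : (E.z * k * E.z⁻¹ * k) ^ 2 = 1 := by
    rw [← s, h.fe.zi]; simp only [pow_succ, pow_zero, one_mul, mul_assoc]
  have inv2 : E.z * (k * k) * E.z⁻¹ = (k * k)⁻¹ := by
    rw [(f.cLK t2 hk).mul_pow, pow_two, pow_two, conj_mul] at s2
    exact eq_inv_of_mul_eq_one_left s2
  have key : ∃ w, w * E.z * w⁻¹ = E.z * k := by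
    have a : (k * k) ^ 3 = 1 := by
      have := f.z6 kL hk
      rw [← pow_two, ← pow_mul]
      rcases M.r13 with e | e <;> rw [e] at this
      · rw [pow_mul, this, one_pow]
      · exact this
    have b' : (k * k)⁻¹ * E.z * (k * k)⁻¹⁻¹ = E.z * k ^ 4 := by
      rw [inv_inv, ← inv2]; simp only [pow_succ, pow_zero, one_mul, mul_assoc, inv_mul_cancel_left]
    have k3 : k ^ 3 = 1 ∨ k ^ 3 = F.z := f.two (pow_mem kL 3) (pow_mem hk 3) (by
      rw [← pow_mul, show 3 * 16 = 2 * 3 * 8 by rfl, pow_mul, pow_mul, pow_two, a, one_pow])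
    rw [pow_succ] at b'
    rcases k3 with d | d <;> rw [d] at b'
    · exact ⟨_, b'.trans (by rw [one_mul])⟩
    · obtain ⟨w, e⟩ := cz
      refine ⟨(k * k)⁻¹ * w, ?_⟩
      rw [← conj_conj', e, ← conj_mul, b', conj_of_comm (f.cK (inv_mem (mul_mem hk hk))), (f.cK hk).eq, mul_assoc,
        mul_assoc, f.zz, mul_one]
  obtain ⟨w, e2⟩ := key
  have e3 : l⁻¹ * w * E.z * (l⁻¹ * w)⁻¹ = E.z * x := by rw [← conj_conj', e2, ← e1]; group
  have p := h.fe.pr (g := l⁻¹ * w) (e3 ▸ (Commute.refl _).mul_right c1) (by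
    rw [e3]
    exact fun a => u1 (by rw [mul_eq_left.1 a, f.one]))
  refine o p ?_
  show E.π (_ * E.z * _) ∈ _
  rwa [e3, h.fe.mul (Commute.refl _) c1, h.fe.πz, one_mul]

end CF.Ec
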