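import Cfsg.Agent.Ec.B
import Cfsg.Agent.StdZ.Cert

/-! Pairs of the first kind do not occur. -/

set_option autoImplicit false

namespace CF.Ec

open Cfsg Subgroup CF.Loc CF.StdZ

variable {G S Γ : Type*} [Group G] [Group S] [Group Γ] {M : Md S Γ} {F E : Dt G S}

theorem Fr.cov2 (h : Fr M F) : ∃ ρ : G → Γ, (∀ {a b}, a ∈ F.L → b ∈ F.L → ρ (a * b) = ρ a * ρ b) ∧
    (∀ {l}, l ∈ F.L → M.ψ (ρ l) = F.π l) ∧ (∀ {a b}, a ∈ F.L → b ∈ F.L → ρ (a * b * a⁻¹) = ρ a * ρ b * (ρ a)⁻¹) ∧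
      ρ F.z ≠ 1 := by
  obtain ⟨ρ, a, b⟩ := h.cov
  refine ⟨ρ, a, b, fun c d => eq_mul_inv_of_mul_eq ?_, fun e => ?_⟩
  · rw [← a (h.nL (h.cL c) d) c, inv_mul_cancel_right, a c d]
  · obtain ⟨l, hl, k, l2⟩ := h.lift2 M.bS (p8 M.bb)
    obtain ⟨β, b1, b2⟩ := M.cb
    exact b2 (by rw [M.sq_eq (b1.trans (k.symm.trans (b hl).symm)), ← a hl hl, h.sqb hl (k ▸ IsConj.refl _) l2, e])

/-- the facts for the Hall–Janko group -/
structure EJ (M : Md S Γ) : Prop where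
  ex : ∃ d i : S, d ^ 5 = 1 ∧ d ≠ 1 ∧ Commute d M.a ∧ i ∈ Y M.p M.a ∧ IsConj M.b i ∧ i * d * i⁻¹ = d⁻¹
  iv : ∀ y d, Commute y M.a → Commute d M.a → d ^ 5 = 1 → d ≠ 1 → y * d * y⁻¹ = d⁻¹ → y * y = 1

/-- the facts for the Suzuki group -/
structure ES (M : Md S Γ) : Prop where
  ex : ∃ (d : S) (χ γ δ : Γ), d ^ 5 = 1 ∧ d ≠ 1 ∧ Commute d M.a ∧ Commute d (M.ψ χ) ∧ M.ψ χ * M.ψ χ = M.a ∧
    M.ψ χ ∈ Y 5 M.a ∧ M.ψ γ * M.a * (M.ψ γ)⁻¹ ∈ Y 5 M.a ∧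
    M.a * (M.ψ γ * M.a * (M.ψ γ)⁻¹) = M.ψ δ * M.a * (M.ψ δ)⁻¹ ∧ χ * χ * (γ * (χ * χ) * γ⁻¹) ≠ δ * (χ * χ) * δ⁻¹
  nb : ∀ d v, d ^ 5 = 1 → Commute d M.a → IsConj M.b v → Commute d v → d = 1

/-- the facts for the Mathieu group -/
structure EM (M : Md S Γ) (θ y : S) (σ χ γ : Γ) : Prop where
  r1 : M.r = 1
  p3 : M.p = 3
  rt : ∀ γ γ', M.ψ γ * M.ψ γ = M.a → M.ψ γ' * M.ψ γ' = M.a → γ * γ = γ' * γ'
  r0 : ∀ x ∈ M.S0, x ^ 4 = 1 → x * x ≠ 1 → IsConj M.a (x * x)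
  t3 : θ ^ 3 = 1
  t1 : θ ≠ 1
  ta : Commute θ M.a
  iv : M.ψ σ * θ * (M.ψ σ)⁻¹ = θ⁻¹
  sa : IsConj M.a (M.ψ σ)
  ca : M.ψ χ * M.ψ χ = M.a
  sc : Commute σ (χ * χ)
  cj : γ * σ * γ⁻¹ = σ * (χ * χ)
  yY : y ∈ Y 3 M.a
  y4 : (y * M.ψ σ) ^ 4 = M.a
  out : ∀ w ∉ M.S0, Commute w M.a → Commute w θ → w ^ 6 = M.a

theorem Fr.eq1 (h : Fr M F) (r : M.r = 1) {a b : G} (ha : a ∈ F.L) (hb : b ∈ F.L) (e : F.π a = F.π b) :
    b = a ∨ b = a * F.z := by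
  obtain ⟨c, c1, c2, rfl⟩ := h.eqc ha hb e
  have := h.LK c1 c2
  rw [r, pow_one] at this
  rcases this with rfl | rfl
  exacts [.inl (mul_one _), .inr rfl]

theorem Fr.inj1 (h : Fr M F) (r : M.r = 1) {ρ : G → Γ} (a : ∀ {a b}, a ∈ F.L → b ∈ F.L → ρ (a * b) = ρ a * ρ b)
    (b : ∀ {l}, l ∈ F.L → M.ψ (ρ l) = F.π l) (n : ρ F.z ≠ 1) {x y : G} (hx : x ∈ F.L) (hy : y ∈ F.L)
    (e : ρ x = ρ y) : y = x :=
  (h.eq1 r hx hy (by rw [← b hx, e, b hy])).resolve_right fun k => n (by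
    rw [k, a hx h.zL] at e
    exact left_eq_mul.1 e)

namespace AA

variable [Finite G] [Finite S] (h : AA M F E)
include h

theorem wlog : ∃ F E : Dt G S, AA M F E ∧ F.π E.z = M.a ∧ E.π F.z = M.a := by
  obtain ⟨s, m, e⟩ := h.nm
  obtain ⟨s', m', e'⟩ := h.symm.nm
  exact ⟨_, _, ((h.tw m).symm.tw m').symm, e, e'⟩

theorem noJ (J : EJ M) : False := by
  obtain ⟨F, E, h, e, e'⟩ := h.wlog
  obtain ⟨d, i, d5, d1, da, hi, ib, id⟩ := J.ex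
  have f := h.fr
  obtain ⟨l, hl, rfl, c, -, l2⟩ := h.liftY2 M.da.co (e ▸ hi) (p8 (conj_sq ib M.bb))
  obtain ⟨x, hx, rfl, x5⟩ := f.liftp M.c5 d5
  have c' := (f.commp hx h.cm (e ▸ da) M.c5 x5).symm
  have k := f.eqp (inv_mem hx) (f.nL (f.cL hl) hx) (by rw [f.cjL hl hx, id, f.inv (f.cL hx)]) M.c5
    (by rw [inv_pow, x5, inv_one]) (by rw [conj_pow, x5]; simp)
  have := J.iv (E.π l) (E.π x) (e' ▸ h.fe.comm c h.cm.symm (f.cL hl).symm) (e' ▸ h.fe.comm c' h.cm.symm (f.cL hx).symm)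
    (by rw [← h.fe.pow c', x5, h.fe.one]) (h.odd_ne hx c' (by decide) x5 d1) (by rw [← h.fe.conj c c', k, h.fe.inv c'])
  exact h.symm.τ1 (by rw [← f.sqb hl ib l2, h.fe.mul c c, this])

theorem inY {q : ℕ} (co : q.Coprime (2 * M.r)) {l : G} (hl : l ∈ F.L) (m : F.π l ∈ Y q (F.π E.z)) :
    Commute E.z l ∧ E.π l ∈ M.S0 := by
  obtain ⟨x, hx, e, c, i⟩ := h.liftY co m
  obtain ⟨k, -, hk, rfl⟩ := h.fr.eqc hx hl e
  refine ⟨c.mul_right (h.Kt hk), ?_⟩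
  rw [h.fe.mul c (h.Kt hk)]
  refine mul_mem i ?_
  rcases h.symm.small h.symm.ta hk (h.Kt hk) with a | a <;> rw [a]
  exacts [one_mem _, M.mem_of M.aS h.symm.ta]

theorem s1 (e : F.π E.z = M.a) (nb : ∀ d v, d ^ 5 = 1 → Commute d M.a → IsConj M.b v → Commute d v → d = 1) {d : S}
    (d5 : d ^ 5 = 1) (d1 : d ≠ 1) (da : Commute d M.a) {l : G} (hl : l ∈ F.L) (dl : Commute d (F.π l))
    (q : F.π l * F.π l = M.a) (m : F.π l ∈ Y 5 M.a) (l2 : l ^ 16 = 1) : l * l = E.z * F.z := by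
  have f := h.fr
  refine (f.eq2 h.tL (mul_mem hl hl) (by rw [f.mL hl hl, q, e]) (p16 h.fe.zz) (by
    rw [← pow_two, ← pow_mul, mul_comm, pow_mul, l2, one_pow])).resolve_left fun k => ?_
  obtain ⟨s, ms, e'⟩ := h.symm.nm
  have g : AA M (Ec.tw E s) F := h.symm.tw ms
  obtain ⟨c, i⟩ := g.symm.inY M.c5 hl (e ▸ m)
  have lE := g.memL c i (n := 4) l2
  have n : l * l ≠ 1 := k ▸ h.fe.z1
  rcases M.cl0 i (by rw [← g.fr.mul c c, k]; exact g.fr.πz) (fun a => by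
    rcases g.two' ((g.fr.ker c).1 a) (f.cL hl) (n := 4) l2 with a | a <;> rw [a] at n
    exacts [n (mul_one _), n h.fe.zz]) with a | a
  · exact n (g.sqa lE a l2)
  obtain ⟨x, hx, rfl, x5⟩ := f.liftp M.c5 d5
  have c' := (f.commp hx h.cm (e ▸ da) M.c5 x5).symm
  exact g.symm.odd_ne hx c' (by decide) x5 d1 (nb _ _ (by rw [← g.fr.pow c', x5, g.fr.one])
    (e' ▸ g.fr.comm c' h.cm.symm (f.cL hx).symm) a (g.fr.comm c' c (f.commp hx (f.cL hl) dl M.c5 x5)))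

theorem noS (J : ES M) : False := by
  obtain ⟨F, E, h, e, -⟩ := h.wlog
  obtain ⟨d, χ, γ, δ, d5, d1, da, dq, q, qY, uY, ua, ne⟩ := J.ex
  have f := h.fr
  have q8 : M.ψ χ ^ 8 = 1 := by rw [show 8 = 2 * 2 * 2 by rfl, pow_mul, pow_mul, pow_two (M.ψ χ), q, pow_two M.a, M.aa, one_pow]
  have s : ∀ {F E : Dt G S}, AA M F E → F.π E.z = M.a → ∀ {l}, l ∈ F.L → F.π l = M.ψ χ → l ^ 16 = 1 →
      l * l = E.z * F.z := fun h e l hl k => h.s1 e J.nb d5 d1 da hl (k ▸ dq) (k ▸ q) (k ▸ qY)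
  obtain ⟨l, hl, k, l2⟩ := f.lift2 ⟨χ, rfl⟩ q8
  obtain ⟨l1, h1, k1⟩ := f.im _ ⟨γ, rfl⟩
  obtain ⟨l2', h2, k2⟩ := f.im _ ⟨δ, rfl⟩
  have t : E.z = l * l * F.z := by rw [s h e hl k l2, mul_assoc, f.zz, mul_one]
  have m1 := f.nL (f.cL h1) h.tL
  have m2 := f.nL (f.cL h2) h.tL
  have p1 : F.π (l1 * E.z * l1⁻¹) = M.ψ γ * M.a * (M.ψ γ)⁻¹ := by rw [f.cjL h1 h.tL, k1, e]
  obtain ⟨c, i⟩ := h.inY M.c5 m1 (by rw [p1, e]; exact uY)
  have sq : ∀ g : G, g * E.z * g⁻¹ * (g * E.z * g⁻¹) = 1 := fun g => by rw [conj_mul, h.fe.zz]; simp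
  have key : E.z * (l1 * E.z * l1⁻¹) = l2' * E.z * l2'⁻¹ := by
    refine (f.eq2 m2 (mul_mem h.tL m1) (by rw [f.mL h.tL m1, p1, e, ua, f.cjL h2 h.tL, k2, e]) (p16 (sq _))
      (by rw [c.mul_pow, p16 (sq _), p16 h.fe.zz, one_mul])).resolve_right fun a => ne ?_
    obtain ⟨ρ, r1, r2, r3, -⟩ := f.cov2
    have ll := mul_mem hl hl
    have z : ∀ {g}, g ∈ F.L → g * E.z * g⁻¹ = g * (l * l) * g⁻¹ * F.z := fun hg => by
      rw [t, ← conj_mul, conj_of_comm (f.cL hg)]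
    rw [z h1, z h2, t, mul_assoc _ F.z F.z, f.zz, mul_one, mul_assoc (l * l), ← mul_assoc F.z,
      (f.cL (f.nL (f.cL h1) ll)).eq, mul_assoc _ F.z, f.zz, mul_one] at a
    have := congrArg ρ a
    rwa [r1 ll (f.nL (f.cL h1) ll), r3 h1 ll, r3 h2 ll, r1 hl hl, M.sq_eq ((r2 hl).trans k),
      M.cj_eq ((r2 h1).trans k1), M.cj_eq ((r2 h2).trans k2)] at this
  have u1 : l1 * E.z * l1⁻¹ ≠ 1 := fun a => h.fe.z1 (conj_eq_one_iff.1 a)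
  have P1 := h.fe.pr c fun a => h.fe.z1 (by rw [a, h.fe.zz] at key; exact conj_eq_one_iff.1 key.symm)
  have P2 := h.fe.pr (g := l2') (key ▸ (Commute.refl _).mul_right c) (key ▸ fun a => u1 (mul_eq_left.1 a))
  have e2 : E.π (E.cj l2').z = E.π (E.cj l1).z := by
    show E.π (l2' * E.z * l2'⁻¹) = _
    rw [← key, h.fe.mul (Commute.refl _) c, h.fe.πz, one_mul]; rfl
  have A1 : AA M E (E.cj l1) := ⟨P1, P1.is_a i⟩
  have A2 : AA M E (E.cj l2') := ⟨P2, e2 ▸ A1.ta⟩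
  obtain ⟨w, mw, e1⟩ := A1.nm
  obtain ⟨y, hy, k, y2⟩ := (h.fe.tw mw).lift2 ⟨χ, rfl⟩ q8
  have := (s (A1.tw mw) e1 hy k y2).symm.trans
    (s (A2.tw mw) ((congrArg (w * · * w⁻¹) e2).trans e1) hy k y2)
  have : l1 * E.z * l1⁻¹ = l2' * E.z * l2'⁻¹ := mul_right_cancel this
  rw [← key] at this
  exact h.fe.z1 (right_eq_mul.1 this)

theorem tsq : ∃ y ∈ F.L, y * y = E.z := by
  obtain ⟨l, -, e, c, i⟩ := h.symm.ex_root h.symm.ta
  exact ⟨l, h.memL c i (n := 2) (by rw [show 2 ^ 2 = 2 * 2 by rfl, pow_mul, pow_two l, e, pow_two, h.fe.zz]), e⟩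

variable {θ y : S} {σ χ γ : Γ} (J : EM M θ y σ χ γ) (e : F.π E.z = M.a)
include J e

theorem rl {x : G} (hx : x ∈ F.L) (k : F.π x * F.π x = M.a) : x * x = E.z := by
  obtain ⟨ρ, r1, r2, -, n⟩ := h.fr.cov2
  obtain ⟨w, hw, a⟩ := h.tsq
  refine h.fr.inj1 J.r1 r1 r2 n h.tL (mul_mem hx hx) ?_
  rw [← a, r1 hw hw, r1 hx hx]
  exact J.rt _ _ (by rw [r2 hw, ← h.fr.mL hw hw, a, e]) (by rw [r2 hx, k])

theorem nc {x g : G} (hx : x ∈ F.L) (c : IsConj M.a (F.π x)) (hg : Commute F.z g) : g * x * g⁻¹ ≠ x * F.z := fun k => by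
  have f := h.fr
  obtain ⟨l, hl, a⟩ := f.up hx M.oa c
  have hg' := ((f.cL hl).mul_right hg).mul_right (f.cL hl).inv_right
  have k' : l * g * l⁻¹ * (l * x * l⁻¹) * (l * g * l⁻¹)⁻¹ = l * x * l⁻¹ * F.z := by
    rw [conj_inv, conj_mul, conj_mul, k, ← conj_mul, conj_of_comm (f.cL hl)]
  generalize l * g * l⁻¹ = g at hg' k'
  have k2 : g * E.z * g⁻¹ = E.z * F.z := by
    rcases f.eq1 J.r1 h.tL (f.nL (f.cL hl) hx) (e.trans a.symm) with b | b <;> rw [b] at k'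
    · exact k'
    · rw [← conj_mul, conj_of_comm hg'] at k'
      exact mul_right_cancel k'
  obtain ⟨w, hw, b⟩ := h.tsq
  have m := f.nL hg' hw
  have := h.rl J e m (by rw [← f.mL m m, conj_mul, b, k2, f.πmK h.cm f.zK, e])
  rw [conj_mul, b, k2] at this
  exact f.z1 (mul_eq_left.1 this)

theorem exs : ∃ s ∈ F.L, F.π s = M.ψ σ ∧ s * s = 1 ∧ Commute E.z s ∧ E.π s ∉ M.S0 ∧
    ∀ g, Commute F.z g → g * s * g⁻¹ ≠ s * (E.z * F.z) := by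
  have f := h.fr
  obtain ⟨s, hs, k, s2⟩ := f.lift2 ⟨σ, rfl⟩ (p8 (conj_sq J.sa M.aa))
  obtain ⟨ρ, r1, r2, r3, n⟩ := f.cov2
  obtain ⟨x, hx, kx⟩ := f.im _ ⟨χ, rfl⟩
  have t : ρ E.z = χ * χ := by rw [← h.rl J e hx (kx ▸ J.ca), r1 hx hx, M.sq_eq ((r2 hx).trans kx)]
  have c : Commute E.z s := comm_of_conj (f.inj1 J.r1 r1 r2 n h.tL (f.nL (f.cL hs) h.tL) (by
    rw [r3 hs h.tL, M.cj_eq ((r2 hs).trans k), t, conj_of_comm J.sc.symm]))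
  refine ⟨s, hs, k, h.sqa hs (k ▸ J.sa) s2, c, fun i => ?_, fun g hg a => ?_⟩
  · obtain ⟨w, hw, rfl, c', i'⟩ := h.liftY (q := 3) (J.p3 ▸ M.da.co) (e ▸ J.yY)
    have m := mul_mem hw hs
    have c2 := c'.mul_right c
    have i2 : E.π (w * s) ∈ M.S0 := h.fe.mul c' c ▸ mul_mem i' i
    have p : F.π (w * s) ^ 4 = M.a := by rw [f.mL hw hs, k, J.y4]
    generalize w * s = r at m c2 i2 p
    have r4 : r * r * (r * r) = E.z := h.rl J e (mul_mem m m) (by rw [f.mL m m, ← p]; simp [pow_succ, mul_assoc])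
    have r8 : r ^ 2 ^ 3 = 1 := by rw [← h.fe.zz, ← r4]; simp [pow_succ, mul_assoc]
    have mE := h.symm.memL c2 i2 r8
    have mE2 := mul_mem mE mE
    have r16 : (r * r) ^ 16 = 1 := by rw [← pow_two, ← pow_mul, show 2 * 16 = 2 ^ 3 * 4 by rfl, pow_mul, r8, one_pow]
    refine h.fe.z1 (r4.symm.trans (h.symm.sqa mE2 (h.fe.mL mE mE ▸ J.r0 _ i2 ?_ fun a => ?_) r16))
    · rw [← h.fe.pow c2, ← h.fe.πz, ← r4]; simp [pow_succ, mul_assoc]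
    · rcases h.fe.two mE2 ((h.fe.ker (h.fe.cL mE2)).1 ((h.fe.mL mE mE).trans a)) r16 with b | b <;> rw [b] at r4
      exacts [h.fe.z1 (by simpa using r4.symm), h.fe.z1 (r4.symm.trans h.fe.zz)]
  · obtain ⟨l, hl, kl⟩ := f.im _ ⟨γ, rfl⟩
    have b : l * s * l⁻¹ = s * E.z := f.inj1 J.r1 r1 r2 n (mul_mem hs h.tL) (f.nL (f.cL hl) hs) (by
      obtain ⟨u, b1, -, b2⟩ := M.eq_mul ((r2 hs).trans k).symm
      rw [r3 hl hs, r1 hs h.tL, M.cj_eq ((r2 hl).trans kl), t, b1, ← conj_mul, J.cj, conj_of_comm (b2 γ), mul_assoc σ u,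
        (b2 _).eq, mul_assoc σ])
    refine h.nc J e (mul_mem hs h.tL) (g := g * l⁻¹) ?_ (hg.mul_right (f.cL hl).inv_right) ?_
    · rw [← b, f.cjL hl hs, k]
      exact J.sa.trans (isConj_iff.2 ⟨_, rfl⟩)
    · rw [mul_assoc s, ← a, ← b]; group

omit e in
theorem noM : False := by
  obtain ⟨F, E, h, e, e'⟩ := h.wlog
  have co : Nat.Coprime 3 (2 * M.r) := J.p3 ▸ M.da.co
  have f := h.fr
  obtain ⟨x, hx, k, x3⟩ := f.liftp co J.t3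
  have c := (f.commp hx h.cm (k ▸ e ▸ J.ta) co x3).symm
  have d3 : E.π x ^ 3 = 1 := by rw [← h.fe.pow c, x3, h.fe.one]
  obtain ⟨g, hg, a⟩ := syl_p Nat.prime_three (fun a => (J.p3 ▸ M.da.sy) (a.trans (card_dvd_of_le Y_le)))
    (mem_Y J.ta J.t3) J.t1 J.t3 (mem_Y (e' ▸ h.fe.comm c h.cm.symm (f.cL hx).symm) d3) d3
  have a1 : g * E.π x * g⁻¹ ≠ 1 := fun b => h.odd_ne hx c (by decide) x3 (k ▸ J.t1) (conj_eq_one_iff.1 b)
  replace a := (cube_cases J.t3 a).resolve_left a1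
  have e2 : (Ec.tw E g).π F.z = M.a := (congrArg (g * · * g⁻¹) e').trans (conj_of_comm (Y_comm hg).symm)
  have h' : AA M (Ec.tw E g) F := h.symm.tw (M.Y_S co hg)
  change (Ec.tw E g).π x = _ ∨ (Ec.tw E g).π x = _ at a
  change F.π (Ec.tw E g).z = _ at e
  change Commute (Ec.tw E g).z x at c
  clear a1 e' d3 hg h
  generalize Ec.tw E g = E at h' e2 a e c
  have h := h'.symm
  have f' := h.fe
  obtain ⟨s, hs, s1, ss, s2, s3, s4⟩ := h.exs J e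
  obtain ⟨b, hb, b1, bb, b2, b3, -⟩ := h'.exs J e2
  have i1 : s * x * s⁻¹ = x⁻¹ := f.eqp (inv_mem hx) (f.nL (f.cL hs) hx)
    (by rw [f.cjL hs hx, f.inv (f.cL hx), s1, k, J.iv]) co (by rw [inv_pow, x3, inv_one]) (by rw [conj_pow, x3]; simp)
  have xE : x ∈ E.L := by
    obtain ⟨l, hl, p, l3⟩ := f'.liftp co (s := E.π x) (by rw [← f'.pow c, x3, f'.one])
    have hk := (f'.πeq (f'.cL hl) c).1 p
    have cz := (h'.Kt hk)
    have k3 : (l⁻¹ * x) ^ 3 = 1 := by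
      have := (f'.cLK hl hk).mul_pow 3
      rwa [mul_inv_cancel_left, x3, l3, one_mul, eq_comm] at this
    have kK : l⁻¹ * x ∈ F.K := (f.ker cz).1 ((h.small h.ta hk cz).resolve_right fun a => h.τ1 (by
      rw [← pow_odd h.ττ (m := 3) (by decide), ← a, ← f.pow cz, k3, f.one]))
    have : x * x = l * (s * l⁻¹ * s⁻¹) := by
      calc x * x = x * (s * x * s⁻¹)⁻¹ := by rw [i1, inv_inv]
        _ = l * (l⁻¹ * x * s * (l⁻¹ * x)⁻¹) * l⁻¹ * s⁻¹ := by group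
        _ = _ := by rw [conj_of_comm (f.cLK hs kK)]; group
    have m := this ▸ mul_mem hl (f'.nL s2 (inv_mem hl))
    have : x = x * x * (x * x) := by
      rw [show x * x * (x * x) = x ^ 3 * x by simp [pow_succ, mul_assoc], x3, one_mul]
    exact this ▸ mul_mem m m
  have i2 : b * x * b⁻¹ = x⁻¹ := f'.eqp (inv_mem xE) (f'.nL (f'.cL hb) xE) (by
    rw [f'.cjL hb xE, f'.inv c, b1]
    rcases a with a | a <;> rw [a]
    · exact J.iv.symm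
    · rw [← conj_inv, J.iv]) co (by rw [inv_pow, x3, inv_one]) (by rw [conj_pow, x3]; simp)
  have c1 : Commute x (s * b) := comm_of_conj (by rw [← conj_conj', i2, ← conj_inv, i1, inv_inv])
  have c2 : Commute x (b * s) := comm_of_conj (by rw [← conj_conj', i1, ← conj_inv, i2, inv_inv])
  have z1 := (f.cL hs).mul_right b2
  have z2 := (f'.cL hb).mul_right s2
  have p1 := J.out (F.π (s * b)) (fun m => b3 ((mul_mem_cancel_left (f.mem hs)).1 (f.mul (f.cL hs) b2 ▸ m)))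
    (e ▸ f.comm z1 h.cm (s2.mul_right (f'.cL hb)).symm) (k ▸ f.comm z1 (f.cL hx) c1.symm)
  have p2 := J.out (E.π (b * s)) (fun m => s3 ((mul_mem_cancel_left (f'.mem hb)).1 (f'.mul (f'.cL hb) s2 ▸ m)))
    (e2 ▸ f'.comm z2 h'.cm (b2.mul_right (f.cL hs)).symm) (by
      have := f'.comm z2 c c2.symm
      rcases a with a | a <;> rw [a] at this
      exacts [this, by simpa using this.inv_right])
  have si := inv_eq_of_mul_eq_one_right ss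
  have bi := inv_eq_of_mul_eq_one_right bb
  have w1 : (s * b) ^ 6 = s * (b * s * b * s * b * s * (b * s * b * s * b)⁻¹) := by
    simp [pow_succ, mul_assoc, si, bi]
  have w2 : (b * s) ^ 6 = b * (s * b * s * b * s * b * (s * b * s * b * s)⁻¹) := by
    simp [pow_succ, mul_assoc, si, bi]
  have w3 : (b * s) ^ 6 = ((s * b) ^ 6)⁻¹ := by rw [← inv_pow, mul_inv_rev, si, bi]
  have g1 := ((b2.mul_right (f.cL hs)).mul_right b2 |>.mul_right (f.cL hs)).mul_right b2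
  have g2 := ((s2.mul_right (f'.cL hb)).mul_right s2 |>.mul_right (f'.cL hb)).mul_right s2
  rcases f.eq1 J.r1 h.tL (w1 ▸ mul_mem hs (f.nL g1 hs)) (by rw [f.pow z1, p1, e]) with q | q
  · rw [q, f'.zi] at w3
    rcases f'.eq1 J.r1 h'.tL (w2 ▸ mul_mem hb (f'.nL g2 hb)) (by rw [f'.pow z2, p2, e2]) with q | q <;> rw [w3] at q
    exacts [h.ne q, f.z1 (right_eq_mul.1 q)]
  · exact s4 _ g1 (by rw [← q, w1, ← mul_assoc s s, ss, one_mul])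

end AA

theorem no_pr [Finite G] [Finite S] (J : EJ M ∨ ES M ∨ ∃ θ y σ χ γ, EM M θ y σ χ γ) : ¬ Pr M F E :=
  outer fun _ _ h => J.elim h.noJ (·.elim h.noS fun ⟨_, _, _, _, _, J⟩ => h.noM J)

end CF.Ec
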