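import Cfsg.Agent.Ec.C
import Cfsg.Agent.Recog.Stem
import Cfsg.Agent.Schur.Cover
import Cfsg.Agent.Bt.Out
import Cfsg.Agent.Sig.FStar
import Cfsg.Agent.Hyp.FTProof

/-! Existence of the frame and of the cover. -/

set_option autoImplicit false

namespace CF.Ec

open Cfsg Subgroup CF.Loc CF.StdZ CF.Schur CF.Schur.Pc CF.Comp Function

variable {G S Γ X : Type*} [Group G] [Group S] [Group Γ] [Group X]

theorem exists_fr [Finite G] {L : Subgroup G} (hL : IsStandardSubgroup L) {M : Md S Γ} {z : G} (zL : z ∈ L)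
    (zK : z ∈ 𝐂(L)) (oz : orderOf z = 2) (zc : ∀ {x}, x ∈ L → x ∈ 𝐂(L) → x ^ M.r = 1 ∨ x ^ M.r = z)
    (ρ : L →* Γ) (hr : (M.ψ.comp ρ).range = M.S0) (hk : (M.ψ.comp ρ).ker = center L)
    (hs : ∀ α : MulAut M.S0, ∃ s : S, ∀ x : M.S0, (α x : S) = s * x * s⁻¹)
    (hi : ∀ s : S, (∀ x ∈ M.S0, Commute s x) → s = 1) : ∃ F : Dt G S, Fr M F := by
  classical
  set p := M.ψ.comp ρ
  have nz : ∀ {g}, g ∈ 𝐍(L) → Commute z g := fun {g} hg => comm_of_conj (by
    have := zc (conj_mem_of_mem_normalizer hg zL) (conj_mem_of_mem_normalizer (normalizer_le_normalizer_centralizer _ hg) zK)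
    rw [conj_pow, pow_odd (sq_of oz) M.ro] at this
    exact this.resolve_left (by simpa using ne_of oz))
  have te : ∀ {s g : G}, s ∈ 𝐂(L) → orderOf s = 2 → g * s * g⁻¹ ∈ 𝐂(L) → g ∈ 𝐍(L) := fun a o b =>
    hL.2.2.2 ▸ te_mem hL.2.1 a o b
  have zn : ∀ {g}, Commute z g → g ∈ 𝐍(L) := fun c => te zK oz (by rwa [conj_of_comm c])
  choose! π hπ using fun c (hc : c ∈ 𝐍(L)) => exists_act p hr hk hs hc
  have un : ∀ {c s}, c ∈ 𝐍(L) → (∀ l m : L, (m : G) = c * l * c⁻¹ → p m = s * p l * s⁻¹) → π c = s :=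
    fun {c s} hc k => inv_mul_eq_one.1 (hi _ fun x hx => by
      obtain ⟨l, rfl⟩ : x ∈ p.range := hr ▸ hx
      have := (hπ c hc l ⟨_, conj_mem_of_mem_normalizer hc l.2⟩ rfl).symm.trans (k l _ rfl)
      refine (comm_of_conj ?_).symm
      calc _ = (π c)⁻¹ * (s * p l * s⁻¹) * π c := by group
        _ = _ := by rw [← this]; group)
  have pl : ∀ l : L, π l = p l := fun l => un (le_normalizer l.2) fun a m e => by
    rw [← map_mul, ← map_inv, ← map_mul]; exact congrArg p (Subtype.ext e)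
  refine ⟨⟨z, L, 𝐂(L), π⟩, oz, zL, zK, Iff.rfl, zc, fun {a b} ha hb => ?_, fun {x} hx => ⟨fun e => ?_, fun k => ?_⟩,
    fun s hs => ?_, fun c l => conj_mem_of_mem_normalizer (zn c) l, fun a o b => nz (te a o b),
    fun g => if m : g ∈ L then ρ ⟨g, m⟩ else 1, fun {a b} ha hb => ?_, fun {l} hl => ?_⟩
  · refine un (mul_mem (zn ha) (zn hb)) fun l m e => ?_
    rw [hπ a (zn ha) ⟨_, conj_mem_of_mem_normalizer (zn hb) l.2⟩ m (by rw [e]; group), hπ b (zn hb) l _ rfl]
    group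
  · refine fun l hl => comm_of_perfect hL.1.1 (fun l hl m hm => ?_) (fun l => conj_mem_of_mem_normalizer (zn hx)) hl
    have := hπ x (zn hx) ⟨l, hl⟩ ⟨_, conj_mem_of_mem_normalizer (zn hx) hl⟩ rfl
    change π x = 1 at e
    rw [e, one_mul, inv_one, mul_one, ← inv_mul_eq_one, ← map_inv, ← map_mul, ← MonoidHom.mem_ker, hk] at this
    have := congrArg Subtype.val (mem_center_iff.1 (inv_mem this) ⟨m, hm⟩)
    simpa [Commute, SemiconjBy, mul_assoc] using this.symm
  · refine un (zn hx) fun l m e => ?_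
    rw [one_mul, inv_one, mul_one]
    exact congrArg p (Subtype.ext (e.trans (conj_of_comm (k _ l.2))))
  · obtain ⟨l, rfl⟩ : s ∈ p.range := hr ▸ hs
    exact ⟨l, l.2, pl l⟩
  · change a ∈ L at ha
    change b ∈ L at hb
    simp only [dif_pos ha, dif_pos hb, dif_pos (mul_mem ha hb)]
    exact map_mul ρ ⟨a, ha⟩ ⟨b, hb⟩
  · change l ∈ L at hl
    simp only [dif_pos hl]
    exact (pl ⟨l, hl⟩).symm

theorem exists_z {L : Type*} [Group L] [Finite L] {r : ℕ} (hA : HasCyclicSchurMultiplier X (2 * r)) {σ : L →* X}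
    (hσ : IsStemExtension σ) (he : 2 ∣ Nat.card σ.ker) :
    ∃ z ∈ σ.ker, orderOf z = 2 ∧ ∀ x ∈ σ.ker, x ^ r = 1 ∨ x ^ r = z := by
  classical
  have := Fact.mk Nat.prime_two
  obtain ⟨φ, hφ⟩ := HasSchur.exists_surjective hA (stem_cext hσ)
  have e := MulEquiv.subgroupCongr (stem_mul hσ)
  have s : Surjective (e.toMonoidHom.comp φ) := e.surjective.comp hφ
  have := isCyclic_of_surjective _ s
  have := Fintype.ofFinite σ.ker
  obtain ⟨z, hz⟩ := exists_prime_orderOf_dvd_card' 2 he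
  refine ⟨z, z.2, (orderOf_coe z).trans hz, fun x hx => by_contra fun n => ?_⟩
  rw [not_or] at n
  obtain ⟨y, k⟩ := s ⟨x, hx⟩
  have y2 : ((⟨x, hx⟩ : σ.ker) ^ r) ^ 2 = 1 := by
    rw [← k, ← pow_mul, ← map_pow, mul_comm r, show y ^ (2 * r) = 1 by
      have := pow_card_eq_one' (x := y)
      rwa [Nat.card_congr Multiplicative.toAdd, Nat.card_zmod] at this, map_one]
  have c := IsCyclic.card_pow_eq_one_le (α := σ.ker) (n := 2) two_pos
  have : ({1, z, ⟨x, hx⟩ ^ r} : Finset σ.ker) ⊆ Finset.univ.filter (· ^ 2 = 1) := by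
    intro w hw
    simp only [Finset.mem_insert, Finset.mem_singleton] at hw
    rcases hw with rfl | rfl | rfl <;> simp only [Finset.mem_filter, Finset.mem_univ, true_and]
    exacts [one_pow _, hz ▸ pow_orderOf_eq_one _, y2]
  have := (Finset.card_le_card this).trans c
  rw [Finset.card_eq_three.2 ⟨_, _, _, (ne_of hz).symm, fun e => n.1 (congrArg Subtype.val e.symm),
    fun e => n.2 (congrArg Subtype.val e.symm), rfl⟩] at this
  omega

theorem exists_rho [Finite X] {L : Type*} [Group L] [Finite L] {r : ℕ} (o : Odd r)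
    (hA : HasCyclicSchurMultiplier X (2 * r)) {σ : L →* X} (hσ : IsStemExtension σ) (p : _root_.commutator L = ⊤)
    {z : L} (hz : z ∈ σ.ker) (oz : orderOf z = 2) (zc : ∀ x ∈ σ.ker, x ^ r = 1 ∨ x ^ r = z) [Finite Γ] {ξ : Γ →* X}
    (hξ : IsStemExtension ξ) (q : _root_.commutator Γ = ⊤) (e2 : ∀ x ∈ ξ.ker, x ^ 2 = 1) (n : ξ.ker ≠ ⊥) :
    ∃ ρ : L →* Γ, ∀ l, ξ (ρ l) = σ l := by
  have cm : ∀ {x}, x ∈ σ.ker → ∀ g, Commute g x := fun hx g => mem_center_iff.1 (hσ.2.1 hx) g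
  let N : Subgroup L :=
    { carrier := {x | x ∈ σ.ker ∧ x ^ r = 1}
      one_mem' := ⟨one_mem _, one_pow _⟩
      mul_mem' := fun a b => ⟨mul_mem a.1 b.1, by rw [(cm b.1 _).mul_pow, a.2, b.2, one_mul]⟩
      inv_mem' := fun a => ⟨inv_mem a.1, by rw [inv_pow, a.2, inv_one]⟩ }
  have : N.Normal := ⟨fun x hx g => by rwa [conj_of_comm (cm hx.1 g).symm]⟩
  let τ := QuotientGroup.lift N σ fun x hx => hx.1
  have pq : _root_.commutator (L ⧸ N) = ⊤ := by
    have := map_commutator_eq L (QuotientGroup.mk' N)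
    rwa [p, ← MonoidHom.range_eq_map, MonoidHom.range_eq_top.2 (QuotientGroup.mk'_surjective N),
      ← _root_.commutator_def, eq_comm] at this
  have s : IsStemExtension τ := ⟨fun x => (hσ.1 x).elim fun l e => ⟨l, e⟩, fun x hx => by
    obtain ⟨x, rfl⟩ := QuotientGroup.mk_surjective x
    exact mem_center_iff.2 fun g => by
      obtain ⟨g, rfl⟩ := QuotientGroup.mk_surjective g
      exact congrArg (QuotientGroup.mk' N) (cm hx g), pq ▸ le_top⟩
  have : NeZero (2 * r) := ⟨by obtain ⟨j, rfl⟩ := o; omega⟩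
  have i : (powMonoidHom 2 : Multiplicative (ZMod (2 * r)) →* _).range.index ≤ 2 := by
    rw [IsCyclic.index_powMonoidHom_range]; exact Nat.gcd_le_right _ two_pos
  obtain ⟨e, k⟩ := Recog.stem_unique hA s hξ pq q (n := 2) (fun x hx => by
      obtain ⟨x, rfl⟩ := QuotientGroup.mk_surjective x
      refine (QuotientGroup.eq_one_iff (x ^ 2)).2 ⟨pow_mem hx 2, ?_⟩
      rw [← pow_mul, mul_comm, pow_mul, pow_two]
      rcases zc x hx with e | e <;> rw [e]
      exacts [one_mul _, sq_of oz]) e2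
    (i.trans (Finite.one_lt_card_iff_nontrivial.2 ⟨⟨(z : L ⧸ N), hz⟩, 1, fun e => ne_of oz ((pow_odd (sq_of oz) o).symm.trans
      ((QuotientGroup.eq_one_iff z).1 (congrArg Subtype.val e)).2)⟩))
    (i.trans (Finite.one_lt_card_iff_nontrivial.2 ((nontrivial_iff_ne_bot _).2 n)))
  exact ⟨e.toMonoidHom.comp (QuotientGroup.mk' N), fun l => k l⟩

theorem Md.cen (M : Md S Γ) (z : center M.S0 = ⊥) (s : S) (h : ∀ x ∈ M.S0, Commute s x) : s = 1 := by
  have k : ∀ s ∈ M.S0, (∀ x ∈ M.S0, Commute s x) → s = 1 := fun s m h =>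
    congrArg Subtype.val (z.le (mem_center_iff.2 fun g => Subtype.ext (h _ g.2).symm) : (⟨s, m⟩ : M.S0) = 1)
  by_contra n
  rcases M.cl s (k _ (M.sq s) fun x hx => (h x hx).mul_left (h x hx)) n with a | a | ⟨a, -, -, -, u, -, -, u1, c⟩
  exacts [n (k s (M.mem_of M.aS a) h), n (k s (M.mem_of M.bS a) h), by
    obtain ⟨g, m, e⟩ := M.conj0 ⟨s, a, Commute.refl s⟩ c
    rw [← conj_mul, conj_of_comm (h g m)] at e
    exact u1 (conj_eq_one_iff.1 (mul_eq_left.1 e))]

theorem false_of [Finite G] (hF : IsSimpleGroup (generalizedFittingSubgroup G))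
    (hF' : ¬ IsMulCommutative (generalizedFittingSubgroup G)) {L : Subgroup G} (hL : IsStandardSubgroup L)
    (he : 2 ∣ Nat.card (center L)) (e : L ⧸ center L ≃* X) [Finite S] [Finite Γ] (M : Md S Γ)
    (hA : HasCyclicSchurMultiplier X (2 * M.r)) (ho : Nat.card (Out X) = 2) {ι : X →* S} (j : Injective ι)
    (c : Nat.card S = Nat.card X * 2) {ξ : Γ →* X} (hξ : IsStemExtension ξ) (q : _root_.commutator Γ = ⊤)
    (hψ : M.ψ = ι.comp ξ) (J : EJ M ∨ ES M ∨ ∃ θ y σ χ γ, EM M θ y σ χ γ) : False := by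
  have := Finite.of_surjective ξ hξ.1
  obtain ⟨s, k⟩ := Recog.stem_center hL.1.1.commutator_eq_top e
  obtain ⟨z, hz, oz, zc⟩ := exists_z hA s (k.symm ▸ he)
  have kx : ∀ x, x ∈ ξ.ker ↔ M.ψ x = 1 := fun x => by rw [hψ]; exact (map_eq_one_iff ι j).symm
  obtain ⟨ρ, hρ⟩ := exists_rho M.ro hA s hL.1.1.commutator_eq_top hz oz zc hξ q
    (fun x hx => (pow_two x).trans (M.kψ x ((kx x).1 hx)).1) fun b => M.cb.elim fun β a =>
      a.2 (b.le ((kx _).2 (by rw [map_mul, a.1, M.bb])))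
  have r : M.S0 = ι.range := by
    rw [Md.S0, hψ, MonoidHom.range_comp, MonoidHom.range_eq_top.2 hξ.1, ← MonoidHom.range_eq_map]
  have e' : X ≃* M.S0 := (MonoidHom.ofInjective j).trans (MulEquiv.subgroupCongr r.symm)
  have := hL.1.2
  have := (e.trans e').symm.isSimpleGroup
  have z0 : center M.S0 = ⊥ := center_simple fun a => by
    obtain ⟨u, hu, -, -, y, y1, -, y3⟩ := M.da.bad
    exact y3 (congrArg Subtype.val (a ⟨y, M.odd_mem (M.odd_of M.da.co) y1⟩ ⟨_, M.aS⟩))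
  have hi := M.cen z0
  have : M.S0.Normal := ⟨fun x hx g => M.nS hx g⟩
  have cp : M.ψ.comp ρ = ι.comp (e.toMonoidHom.comp (QuotientGroup.mk' (center L))) :=
    MonoidHom.ext fun l => by rw [hψ]; exact congrArg ι (hρ l)
  have mc : ∀ {x : L}, x ∈ center L ↔ x.1 ∈ 𝐂(L) := fun {x} =>
    ⟨fun a m hm => congrArg Subtype.val (mem_center_iff.1 a ⟨m, hm⟩), fun a => mem_center_iff.2 fun m =>
      Subtype.ext (a _ m.2)⟩
  obtain ⟨F, h⟩ := exists_fr hL (M := M) z.2 (mc.1 (k ▸ hz)) ((orderOf_coe z).trans oz)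
    (fun {x} a b => (zc ⟨x, a⟩ (k.symm ▸ mc.2 b)).imp (congrArg Subtype.val) (congrArg Subtype.val)) ρ
    (by rw [cp, r, MonoidHom.range_comp, MonoidHom.range_eq_top.2 s.1, ← MonoidHom.range_eq_map])
    (by rw [cp]; ext x; exact (map_eq_one_iff ι j).trans (Subgroup.ext_iff.1 k x)) (fun α => by
      have i : Injective (MulAut.conjNormal : S →* MulAut M.S0) := (injective_iff_map_eq_one _).2 fun x a =>
        hi x fun g m => (comm_of_conj (congrArg Subtype.val (DFunLike.congr_fun a ⟨g, m⟩))).symm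
      have i' : Injective (MulAut.conj : M.S0 →* MulAut M.S0) := (injective_iff_map_eq_one _).2 fun _ hx =>
        z0.le (mem_center_iff.2 fun g => (mul_inv_eq_iff_eq_mul.1 (DFunLike.congr_fun hx g)).symm)
      obtain ⟨s, rfl⟩ := ((Nat.bijective_iff_injective_and_card _).2 ⟨i, by
        rw [c, card_eq_card_quotient_mul_card_subgroup (Inn M.S0), ← Nat.card_congr (MonoidHom.ofInjective i').toEquiv,
          ← Nat.card_congr e'.toEquiv, mul_comm, ← ho, Bt.card_out_congr e']⟩).2 α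
      exact ⟨s, fun _ => rfl⟩) hi
  have cF : ∀ x ∈ 𝐂(generalizedFittingSubgroup G), x = 1 := fun x hx => congrArg Subtype.val
    ((center_simple fun a => hF' ⟨⟨a⟩⟩).le (mem_center_iff.2 fun y => Subtype.ext (hx y y.2)) :
      (⟨x, Sig.centralizer_fstar_le hx⟩ : generalizedFittingSubgroup G) = 1)
  obtain ⟨N, hN, o, c⟩ := Char.inZStar_of_isolated (u := F.z)
    ⟨h.oz, fun g c => by_contra fun a => no_pr J (h.pr c a)⟩
  rcases (inferInstance : (N.subgroupOf (generalizedFittingSubgroup G)).Normal).eq_bot_or_eq_top with k | k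
  · refine h.z1 (cF _ fun g _ => (commutatorElement_eq_one_iff_commute.1 (cF _ fun y hy => ?_)).symm)
    exact (commute_of_normal_of_disjoint _ _ inferInstance hN (subgroupOf_eq_bot.1 k).symm _ _ hy (c g)).eq
  · exact hF' ⟨⟨IsSimpleGroup.comm_iff_isSolvable.2 (CF.Hyp.isSolvable_of_odd
      (o.of_dvd_nat (card_dvd_of_le (subgroupOf_eq_top.1 k))))⟩⟩

/-- the cover given by a presentation -/
theorem exists_cov {X : Type} [Group X] [Finite X] {rels : List (List ℕ)} {m : ℕ} {f : ℕ → X} (hP : Presents rels m f)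
    (pX : _root_.commutator X = ⊤) {Δ : Type} [Group Δ] {y : ℕ → Δ} {same : List ℕ → List ℕ → Bool}
    (hs : ∀ u w, same u w = true → ev y u = ev y w) {tails us : List (List ℕ)} (h : covOK same m 1 rels tails us = true)
    (ht : ∀ j < llen rels, tailAt same rels tails j = true) (hz : y m * y m = 1) :
    ∃ (Γ : Type) (_ : Group Γ) (_ : Finite Γ) (ξ : Γ →* X) (μ : Γ →* Δ) (x : ℕ → Γ), IsStemExtension ξ ∧
      _root_.commutator Γ = ⊤ ∧ (∀ c, ξ c = 1 → c * c = 1) ∧ (∀ a b, ξ a = ξ b → μ a = μ b → a = b) ∧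
      ∀ w, lettersLe m [w] = true → ξ (ev x w) = ev f w ∧ μ (ev x w) = ev y w := by
  rw [covOK, brec_and, brec_and, brec_and, beq_iff, lall_iff, allFrom_zero, allFrom_zero, llen_eq, llen_eq] at h
  rw [llen_eq] at ht
  obtain ⟨h1, h2, h3, h4⟩ := h
  have h5 : ∀ i < m + 1, y i * y m = y m * y i := fun i hi => by
    simpa [ev_lapp, ev_lw] using hs _ _ (allFrom_zero.1 (h3 0 one_pos) i hi)
  have h7 : ∀ j, ev y (nth [] rels j) = ev y (nth [] tails j) := fun j => by
    by_cases hj : j < rels.length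
    · exact hs _ _ (ht j hj)
    · rw [nth_of_le _ (by omega), nth_of_le _ (by omega)]
  have hr : ∀ r ∈ rels, ev y r ∈ zpowers (y m) := fun r hr => by
    obtain ⟨j, hj, rfl⟩ := exists_nth_of_mem [] hr
    rw [h7]
    simpa [gen_one] using ev_mem_gen (f := y) (h2 _ (nth_mem _ (by omega)))
  have cs : ∀ {z}, z ∈ zpowers (y m) → z = 1 ∨ z = y m := fun {z} ⟨k, e⟩ => by
    rcases Int.even_or_odd' k with ⟨j, rfl | rfl⟩ <;> simp [← e, zpow_add, zpow_mul, pow_two, hz]
  obtain ⟨b1, b2⟩ := brec_and.1 (h4 0 one_pos)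
  replace b2 := hs _ _ b2
  let Y := centralizer {y m}
  let y' : ℕ → Y := fun i => if h : i < m then ⟨y i, mem_centralizer_singleton_iff.2 (h5 i (by omega))⟩ else 1
  have hy' : ∀ w : List ℕ, (∀ x ∈ w, x ≤ 2 * m) → ((ev y' w : Y) : Δ) = ev y w := fun w hw => by
    rw [← Y.subtype_apply, map_ev]
    exact ev_congr (fun i hi => by simp [y', hi]) hw
  let N := (zpowers (y m)).subgroupOf Y
  have hN : N ≤ center Y := fun z hz => mem_center_iff.2 fun g => Subtype.ext (by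
    rcases cs (z := z.1) hz with e | e
    · simp [e]
    · rw [coe_mul, coe_mul, e]; exact mem_centralizer_singleton_iff.1 g.2)
  have : N.Normal := ⟨fun a ha g => by rwa [mem_center_iff.1 (hN ha) g, mul_inv_cancel_right]⟩
  obtain ⟨φ, hφ⟩ := hP.2.2 (Y ⧸ N) (fun i => QuotientGroup.mk' N (y' i)) fun r hr' => by
    rw [← map_ev, QuotientGroup.mk'_apply, QuotientGroup.eq_one_iff, mem_subgroupOf,
      hy' r (lettersLe_iff.1 hP.2.1 r hr')]
    exact hr r hr'
  have hξ : CExt (pullSnd (QuotientGroup.mk' N) φ) := (cext_mk' N hN).pull φ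
  let μ : pull (QuotientGroup.mk' N) φ →* Δ := Y.subtype.comp (pullFst _ φ)
  let x : ℕ → pull (QuotientGroup.mk' N) φ := fun i => if h : i < m then ⟨(y' i, f i), mem_pull.2 (hφ i h).symm⟩ else 1
  have ex : ∀ a b, pullSnd _ φ a = pullSnd _ φ b → μ a = μ b → a = b := fun a b c d =>
    Subtype.ext (Prod.ext (Subtype.ext d) c)
  have ev2 : ∀ w : List ℕ, (∀ x ∈ w, x ≤ 2 * m) → pullSnd _ φ (ev x w) = ev f w ∧ μ (ev x w) = ev y w := fun w hw => by
    rw [map_ev, map_ev]
    exact ⟨ev_congr (fun i hi => by simp [x, hi, pullSnd]) hw, ev_congr (fun i hi => by simp [x, hi, μ, pullFst, y']) hw⟩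
  have kr : ∀ c, pullSnd _ φ c = 1 → μ c = 1 ∨ μ c = y m := fun c hc => by
    have h1 := DFunLike.congr_fun (pull_comm (QuotientGroup.mk' N) φ) c
    rw [MonoidHom.comp_apply, MonoidHom.comp_apply, hc, map_one, QuotientGroup.mk'_apply, QuotientGroup.eq_one_iff] at h1
    exact cs h1
  have kc : (pullSnd (QuotientGroup.mk' N) φ).ker ≤ _root_.commutator _ := fun c hc => by
    obtain ⟨p, q⟩ := ev2 _ (balanced_le b1)
    rcases kr c hc with e | e
    · rw [ex c 1 (hc.trans (map_one _).symm) (e.trans (map_one _).symm)]; exact one_mem _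
    · rw [ex c (ev x (subst rels (nth [] us 0))) (hc.trans ?_) (e.trans ?_)]
      · exact ev_mem_commutator x b1
      · rw [p, ev_subst]
        refine (ev_const_one (fun i => ?_) _).symm
        rcases nth_mem_or [] rels i with h | h
        · exact hP.1 _ h
        · rw [h]; rfl
      · rw [q, ev_subst]
        rw [ev_subst] at b2
        simp only [h7]
        simpa [ev_lw] using b2.symm
  have fin : Finite (pullSnd (QuotientGroup.mk' N) φ).ker := Finite.of_injective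
    (fun c => (⟨μ c.1, kr c.1 c.2⟩ : ({1, y m} : Set Δ))) fun a b e =>
      Subtype.ext (ex _ _ (a.2.trans b.2.symm) (Subtype.mk.inj e))
  refine ⟨_, _, (MonoidHom.finite_iff_finite_ker_range _).2 ⟨fin, inferInstance⟩, _, μ, x, hξ.stem kc, ?_,
    fun c hc => ex _ _ (by rw [map_mul, hc, one_mul, map_one]) ?_, ex,
    fun w hw => ev2 w (lettersLe_iff.1 hw w List.mem_cons_self)⟩
  · refine eq_top_iff.2 fun g _ => ?_
    obtain ⟨k, e⟩ := (hξ.stem_commutator pX).1.1 (pullSnd _ φ g)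
    have : k.1⁻¹ * g ∈ (pullSnd (QuotientGroup.mk' N) φ).ker := by
      rw [MonoidHom.mem_ker, map_mul, map_inv, ← e]; simp
    simpa using mul_mem k.2 (kc this)
  · rw [map_mul, map_one]
    rcases kr c hc with e | e <;> rw [e]
    exacts [one_mul _, hz]

end CF.Ec
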