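import Cfsg.Agent.Ec.D
import Cfsg.Agent.Known.Inv.Cert
import Cfsg.Agent.Fisch.St.Ext
import Cfsg.Agent.StdZ.Cert
import Cfsg.Agent.XT.Nrm

/-! Permutation models of the automorphism groups and word certificates. -/

set_option autoImplicit false

namespace CF.Ec

open Cfsg Subgroup CF.Comp CF.Fisch CF.KI CF.Schur CF.Schur.Pc Function

variable {S Γ X Ω : Type*} [Group S] [Group Γ] [Group X] {n k : ℕ} {D : Comp.Dom Ω n} {N : List Net}
  {f : ℕ → S} {e : Fisch.Sm} {c : List Lvl} {H : Subgroup S}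

theorem dvd_two {u : S} {g : ℕ → S} (t : closure (Set.range g) = ⊤) (h : ∀ i, g i ∈ H ∨ g i = u) (q : u * u ∈ H)
    (m : u ∈ normalizer (H : Set S)) : H.index ∣ 2 := by
  have a : ∀ {x}, x ∈ H → ∀ {y}, y * u ∈ H ∨ y ∈ H → x * y * u ∈ H ∨ x * y ∈ H := fun hx _ hy =>
    hy.imp (fun b => by rw [mul_assoc]; exact mul_mem hx b) (mul_mem hx)
  have b : ∀ {y}, y * u ∈ H ∨ y ∈ H → u * y * u ∈ H ∨ u * y ∈ H := fun {y} hy => hy.elim
    (fun b => .inr (by simpa [mul_assoc] using (mem_normalizer_iff.1 m _).1 b))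
    fun b => .inl (by simpa [mul_assoc] using mul_mem ((mem_normalizer_iff.1 m _).1 b) q)
  refine index_dvd_two_iff.2 ⟨u, fun y => ?_⟩
  have hy : y ∈ closure (Set.range g) := t ▸ mem_top y
  induction hy using closure_induction_left with
  | one => exact .inr (one_mem _)
  | mul_left x hx y _ ih =>
    obtain ⟨i, rfl⟩ := hx
    exact (h i).elim (a · ih) fun d => d ▸ b ih
  | inv_mul_cancel x hx y _ ih =>
    obtain ⟨i, rfl⟩ := hx
    refine (h i).elim (fun d => a (inv_mem d) ih) fun d => ?_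
    simpa [d, mul_assoc] using a (inv_mem q) (b ih)

/-- the square of the net is the word `v` -/
noncomputable def sqOK (N : List Net) (n k : ℕ) (π : Net) (v : List ℕ) : Bool :=
  bnd (lettersLe (llen N) [v]) (sameW (lapp N [π]) n k [2 * llen N + 1, 2 * llen N + 1] v)

theorem model [MulAction X Ω] {f : ℕ → X} (hE : Exact D N f c ⊤) {m : ℕ} (hg : clo f (gensW m) = ⊤) (hk : n ≤ 2 ^ k)
    {π : Net} {ys : List (List ℕ)} (h : Bt.autOK N n k m π ys = true) {v : List ℕ} (h' : sqOK N n k π v = true) :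
    Wf n (lapp N [π]) ∧ ∃ ι : X →* Fisch.PG (lapp N [π]), Injective ι ∧ ι.range.index ∣ 2 ∧ ∀ x, Acts D (ι x).1 x := by
  unfold Bt.autOK at h
  rw [force_eq, brec_and, brec_and, brec_and, allFrom_zero, ble_iff, llen_eq] at h
  obtain ⟨h1, h2, h3, h4⟩ := h
  obtain ⟨h5, h6⟩ := brec_and.1 h'
  rw [llen_eq] at h5 h6
  have hw := wf_lapp hE.reps.wf (wf_of_wfAll h1)
  have := Fisch.PG.finite hw
  obtain ⟨ψ, q⟩ := Fisch.Reps.toPG hE.reps (top_le_iff.1 (Bt.Exact.le_range hE))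
  have a : ∀ i < N.length, pf (lapp N [π]) i = pf N i := fun i hi => by rw [pf, pf, nth_lapp_lt _ _ hi]
  have l : Fisch.PG N ≤ Fisch.PG (lapp N [π]) := (closure_le _).2 (by
    rintro _ ⟨i, rfl⟩
    exact (lt_or_ge i N.length).elim (fun hi => subset_closure ⟨i, a i hi⟩) fun hi => pf_eq_one hi ▸ one_mem _)
  set ι := (inclusion l).comp ψ
  set g := Fisch.pg (lapp N [π])
  have b : ∀ u w, ev (pf (lapp N [π])) u = ev (pf (lapp N [π])) w → ev g u = ev g w := fun u w e =>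
    Subtype.ext ((map_ev (Subgroup.subtype _) g u).trans (e.trans (map_ev (Subgroup.subtype _) g w).symm))
  have d : ∀ {ws w}, lettersLe N.length ws = true → w ∈ ws → ev g w ∈ ι.range := fun {ws w} x y =>
    ⟨ev f w, Subtype.ext ((congrArg Subtype.val (q.ev w)).trans ((map_ev (Subgroup.subtype _) _ w).trans
      ((ev_pf_lapp _ rfl x y).symm.trans (map_ev (Subgroup.subtype _) g w).symm)))⟩
  have r : ∀ i < N.length, ι (f i) = g i := fun i hi =>
    Subtype.ext ((congrArg Subtype.val (q.gen i)).trans (a i hi).symm)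
  refine ⟨hw, ι, (injective_iff_map_eq_one _).2 fun x e => hE.faithful x trivial (q.eq_one.1
    (inclusion_injective l (e.trans (map_one _).symm))), dvd_two (u := g N.length) Fisch.pg_top (fun i => ?_) ?_ ?_,
    q.acts⟩
  · rcases lt_trichotomy i N.length with hi | rfl | hi
    exacts [.inl ⟨_, r i hi⟩, .inr rfl, .inl ⟨1, (map_one _).trans
      (Subtype.ext (pf_eq_one (by rw [lapp_eq]; simpa using hi)).symm)⟩]
  · have := b _ _ (hw.sameW hk h6)
    rw [ev_cons, ev_single, evL_odd] at this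
    exact this ▸ d h5 (List.mem_singleton_self _)
  · refine mem_normalizer_of_fin fun x hx => ?_
    revert x
    change ι.range ≤ ι.range.comap (MulAut.conj (g N.length)).toMonoidHom
    conv_lhs => rw [MonoidHom.range_eq_map, ← hg, map_clo]
    refine clo_le.2 fun w hw' => ?_
    obtain ⟨i, hi, rfl⟩ := Bt.of_mem_gensW hw'
    have := b _ _ (hw.sameW hk (h4 i hi))
    rw [ev_lapp, show Nat.succ (Nat.mul (nat_lit 2) N.length) = 2 * N.length + 1 from rfl,
      show Nat.succ (Nat.mul (nat_lit 2) i) = 2 * i + 1 from rfl, ev_cons, ev_cons, ev_single, evL_odd,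
      ev_nil, mul_one, ← r i (hi.trans_le h2)] at this
    rw [ev_single, mem_comap]
    show g N.length * ι (f i) * (g N.length)⁻¹ ∈ _
    rw [← this, mul_inv_cancel_right]
    exact (nth_mem_or [] ys i).elim (d h3) fun e => by rw [e]; exact one_mem _

theorem fresh [MulAction S Ω] [Finite S] {g : ℕ → S} (hR : Reps D N g) (hn : n < 16777215) (hk : n ≤ 2 ^ k)
    {ws W : List (List ℕ)} {Z Z1 : List Net} (h1 : Bt.evsOK N n k Z ws = true) (hl : llen ws = 2)
    (h2 : slpOK (lapp Z Z1) n k W 2 = true) [Finite X] {ι : X →* S} (j : Injective ι) (i : ι.range.index ∣ 2)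
    (ok : Bt.geOK (lapp Z Z1) n c (Nat.card X * 2) = true) : ∃ f : ℕ → S, Exact D (lapp Z Z1) f c ⊤ ∧
      Nat.card S = Nat.card X * 2 ∧ ι.range.index = 2 ∧ (ev f [1] ∈ ι.range → ev f [3] ∉ ι.range) := by
  have e : Z.length = 2 := by
    rw [← hl, ← llen_eq]; exact beq_iff.1 (brec_and.1 h1).1
  have h0 : ∀ i, 2 ≤ i → evs g ws i = 1 := fun i hi => evs_eq_one (by rwa [← llen_eq, hl])
  have hR := (Bt.reps_evs hR hk h1).extend hk (e ▸ h0) (e ▸ slp_of_slpOK h2)
  rw [e] at hR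
  have a := ι.range.card_mul_index
  rw [← Nat.card_congr (MonoidHom.ofInjective j).toEquiv] at a
  have hs := a.ge.trans (Nat.mul_le_mul_left _ (Nat.le_of_dvd two_pos i))
  have hE := Bt.exact_of_ge hR hn (fun _ _ => mem_top _) (card_top.trans_le hs) ok
  have b := hs.antisymm (card_top (G := S) ▸ ge_card hR hn (fun _ _ => mem_top _) ok)
  have d := Nat.eq_of_mul_eq_mul_left Nat.card_pos (a.trans b)
  refine ⟨_, hE, b, d, fun p q => ?_⟩
  have : ι.range = ⊤ := top_le_iff.1 ((Bt.Exact.le_range hE).trans ((closure_le _).2 ?_))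
  · simp [this] at d
  rintro _ ⟨i, rfl⟩
  refine slp_mem (fun i => ?_) _ _ i
  rw [show 1 = 2 * 0 + 1 from rfl, ev_single, slp_lt _ _ two_pos] at p
  rw [show 3 = 2 * 1 + 1 from rfl, ev_single, slp_lt _ _ one_lt_two] at q
  match i with
  | 0 => exact p
  | 1 => exact q
  | i + 2 => exact h0 (i + 2) (by omega) ▸ one_mem _

theorem link [MulAction X Ω] {N0 N1 : List Net} {f0 : ℕ → X} (R0 : Reps D N0 f0) (hw : Wf n N1) {ι : X →* Fisch.PG N1}
    (ac : ∀ x, Acts D (ι x).1 x) {g : ℕ → Fisch.PG N1} (R : Reps (Comp.Dom.nat n) N g) (hk : n ≤ 2 ^ k)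
    {us : List (List ℕ)} (h : Bt.evsOK N n k N0 us = true) (w : List ℕ) : ι (ev f0 w) = ev g (subst us w) := by
  rw [← ev_evs]
  exact Subtype.ext (((ac _).unique (R0.acts_ev w)).trans (((Bt.reps_evs R hk h).acts_ev w).unique
    ⟨Fisch.PG.supp hw (ev (evs g us) w).2, fun _ _ => rfl⟩))

theorem cls [Finite S] {gs : List (List ℕ)} (he : IsSm f e) (hS : CenS f 2 gs) {l m : ℕ} (hl : gs.length = l)
    (hc : Nat.card S = 2 ^ l * m) (hm : ¬ 2 ∣ m) {Z reps : List (List ℕ)} (hC : Cl f 2 gs ⊤ l Z)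
    {Ts : List To} (h : finOK e gs Z ([] :: reps) Ts = true) (t : S) (i : t * t = 1) (t1 : t ≠ 1) :
    ∃ r ∈ reps, IsConj (ev f r) t := by
  obtain ⟨x, -, r, hr, k⟩ := classes_of_sylow (P := clo f gs) (H := ⊤) le_top Nat.prime_two
    (by rw [card_top, hS.card0, hl, hc]) hm (R := fun y => ∃ r ∈ [] :: reps, y = ev f r)
    (hC.fin he (fun _ => mem_top _) hl h) t trivial ((pow_two t).trans i)
  rcases List.mem_cons.1 hr with rfl | hr
  · exact (t1 (conj_eq_one_iff.1 k)).elim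
  · exact ⟨r, hr, (isConj_iff.2 ⟨x, k⟩).symm⟩

/-- negation -/
noncomputable def nt (b : Bool) : Bool := Bool.rec true false b

theorem nt_iff {b : Bool} : nt b = true ↔ b = false := by cases b <;> simp [nt]

/-- conjugate of a word -/
noncomputable def cw (g x : List ℕ) : List ℕ := lapp g (lapp x (winv g))

theorem ev_cw (g x : List ℕ) : ev f (cw g x) = ev f g * ev f x * (ev f g)⁻¹ := by
  simp only [cw, ev_lapp, ev_winv, mul_assoc]

theorem conj_cw (g x : List ℕ) : IsConj (ev f x) (ev f (cw g x)) := isConj_iff.2 ⟨_, (ev_cw g x).symm⟩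

/-- the words commute -/
noncomputable def co (e : Fisch.Sm) (x y : List ℕ) : Bool := e (lapp x y) (lapp y x)

/-- the word times a square has odd order -/
noncomputable def inOK (e : Fisch.Sm) (w : List ℕ) (c : List ℕ × ℕ) : Bool :=
  e (wpow (lapp w (lapp c.1 c.1)) (2 * c.2 + 1)) []

/-- `p`-th roots of one that commute with `x` -/
noncomputable def yOK (e : Fisch.Sm) (p : ℕ) (x : List ℕ) (xs : List (List ℕ)) : Bool :=
  bnd (powOK e p xs) (comOK e xs [x])

/-- certificate for `Cd.bad` -/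
noncomputable def cdOK (e : Fisch.Sm) (p : ℕ) (x : List ℕ) (xs : List (List ℕ)) (u y : List ℕ) : Bool :=
  lall (fun t => t) [yOK e p x xs, ordOK e 2 (subst xs u), e (wpow y p) [], co e y (subst xs u), nt (co e y x)]

/-- the condition on the outer involutions -/
def Ou (H : Subgroup S) (r : ℕ) (b v : S) : Prop := v ∉ H ∧ (∃ n, IsConj b n ∧ Commute n v) ∧
  ∃ q, q.Coprime (2 * r) ∧ ∃ u ∈ Y q v, u * u = 1 ∧ u ≠ 1 ∧ IsConj v (v * u)

/-- certificate for `Ou` -/
noncomputable def ouOK (e : Fisch.Sm) (b v : List ℕ) (c : List ℕ × ℕ) (g : List ℕ) (q : ℕ) (xs : List (List ℕ))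
    (u h : List ℕ) : Bool := lall (fun t => t)
  [inOK e (lapp [3] v) c, co e (cw g b) v, yOK e q v xs, ordOK e 2 (subst xs u), e (cw h v) (lapp v (subst xs u))]

theorem Ou.conj (i : H.index = 2) {r : ℕ} {b v w : S} (h : Ou H r b v) (c : IsConj v w) : Ou H r b w := by
  obtain ⟨g, rfl⟩ := isConj_iff.1 c
  obtain ⟨a, ⟨m, m1, m2⟩, q, q1, u, u1, u2, u3, u4⟩ := h
  refine ⟨fun d => a (by simp only [mul_mem_iff_of_index_two i, inv_mem_iff] at d; tauto),
    ⟨_, m1.trans (isConj_iff.2 ⟨g, rfl⟩), m2.conj g⟩, q, q1, _, Y_conj u1 g, by rw [conj_mul, u2]; simp,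
    mt conj_eq_one_iff.1 u3, c.symm.trans (u4.trans (isConj_iff.2 ⟨g, conj_mul.symm⟩))⟩

theorem iv2 {x : S} (h : orderOf x = 2) : x * x = 1 ∧ x ≠ 1 :=
  ⟨by rw [← pow_two, ← h, pow_orderOf_eq_one], fun a => by simp [a] at h⟩

section
variable (he : IsSm f e)
include he

theorem in_of (i : H.index = 2) {w : List ℕ} {c : List ℕ × ℕ} (h : inOK e w c = true) : ev f w ∈ H := by
  have a := he.one h
  rw [ev_wpow, ev_lapp, ev_lapp, pow_succ, pow_mul] at a
  have := a ▸ H.one_mem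
  exact (mul_mem_cancel_right (mul_self_mem_of_index_two i _)).1
    ((mul_mem_cancel_left (pow_mem (sq_mem_of_index_two i _) _)).1 this)

theorem out_of (i : H.index = 2) (o : ev f [3] ∉ H) {w : List ℕ} {c : List ℕ × ℕ} (h : inOK e (lapp [3] w) c = true) :
    ev f w ∉ H := fun m => o ((mul_mem_cancel_right m).1 (ev_lapp f _ w ▸ in_of he i h))

theorem oc_of (i : H.index = 2) (o : ev f [3] ∉ H) {w x : List ℕ} {c : List ℕ × ℕ}
    (h : bnd (inOK e (lapp [3] w) c) (co e w x) = true) : ∃ o ∉ H, Commute o (ev f x) :=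
  ⟨_, out_of he i o (brec_and.1 h).1, he.comm (brec_and.1 h).2⟩

theorem y_gen {p : ℕ} {x : List ℕ} {xs : List (List ℕ)} (h : yOK e p x xs = true) :
    ∀ w ∈ xs, ev f w ^ p = 1 ∧ Commute (ev f w) (ev f x) := fun w m => ⟨he.pow (brec_and.1 h).1 w m,
  mem_centralizer_singleton_iff.1 (he.com_le1 (brec_and.1 h).2 (ev_mem_clo f m))⟩

theorem y_of {p : ℕ} {x : List ℕ} {xs : List (List ℕ)} (h : yOK e p x xs = true) (u : List ℕ) :
    ev f (subst xs u) ∈ Y p (ev f x) :=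
  clo_le.2 (fun w m => mem_Y (y_gen he h w m).2 (y_gen he h w m).1) (ev_subst_mem_clo f xs u)

theorem y_eq {p : ℕ} {x w u : List ℕ} {xs : List (List ℕ)} (h : bnd (yOK e p x xs) (e w (subst xs u)) = true) :
    ev f w ∈ Y p (ev f x) := he.eq (brec_and.1 h).2 ▸ y_of he (brec_and.1 h).1 u

theorem cd_of {r p m : ℕ} (hp : p.Prime) (hc : p.Coprime (2 * r)) {x u y : List ℕ} {xs : List (List ℕ)}
    (hm : Nat.card (centralizer {ev f x}) = m) (sy : ¬ p ^ 2 ∣ m) (h : cdOK e p x xs u y = true) : Cd r p (ev f x) := by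
  simp only [cdOK, lall_iff, List.forall_mem_cons, nt_iff] at h
  obtain ⟨a, b, c, d, g, -⟩ := h
  have b := iv2 (he.ord Nat.prime_two b)
  exact ⟨hp, hc, hm ▸ sy, _, y_of he a u, b.1, b.2, _, (ev_wpow f y p).symm.trans (he.one c), he.comm d, he.not_comm g⟩

theorem ou_of (i : H.index = 2) (o : ev f [3] ∉ H) {r q : ℕ} (hq : q.Coprime (2 * r)) {b v g u h : List ℕ}
    {c : List ℕ × ℕ} {xs : List (List ℕ)} (k : ouOK e b v c g q xs u h = true) : Ou H r (ev f b) (ev f v) := by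
  simp only [ouOK, lall_iff, List.forall_mem_cons] at k
  obtain ⟨a, b, c, d, g, -⟩ := k
  have d := iv2 (he.ord Nat.prime_two d)
  exact ⟨out_of he i o a, ⟨_, conj_cw _ _, he.comm b⟩, q, hq, _, y_of he c u, d.1, d.2,
    ev_lapp f v _ ▸ he.eq g ▸ conj_cw h v⟩

variable [MulAction S Ω] (hE : Exact D N f c ⊤) (h0 : 0 < n) (hk : n ≤ 2 ^ k) {as fw kg : List (List ℕ)} {T : Bt.Tr}
include hE h0 hk

theorem lst {zs : List (List ℕ)} (h1 : Bt.stdS N n k c as as [] [] fw kg T (llen zs) = true)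
    (h2 : bnd (comOK e zs as) (StdZ.ndW (fun u w => nt (e u w)) zs) = true) {x : S}
    (hx : ∀ w ∈ as, Commute x (ev f w)) : ∃ z ∈ zs, ev f z = x :=
  haveI := Bt.Exact.finite_top hE
  StdZ.cent_list (fun _ _ => he.eq) (fun _ _ a => he.ne (nt_iff.1 a)) (brec_and.1 h2).1 (brec_and.1 h2).2
    (llen_eq zs ▸ Bt.card_cent_clo_le hE h0 hk (Bt.std_of_S h1)) (XT.mem_cent_clo hx)

theorem za_of {p : ℕ} {a : List ℕ} (h1 : Bt.stdS N n k c as as [] [] fw kg T (llen [[], a]) = true)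
    (h2 : bnd (comOK e [[], a] as) (StdZ.ndW (fun u w => nt (e u w)) [[], a]) = true) (h3 : yOK e p a as = true) (x : S)
    (hx : ∀ d, d ^ p = 1 → Commute d (ev f a) → Commute x d) : x = 1 ∨ x = ev f a := by
  simpa [eq_comm] using lst he hE h0 hk h1 h2 fun w m => hx _ (y_gen he h3 w m).1 (y_gen he h3 w m).2

theorem zb_of {p : ℕ} {b : List ℕ} {zs : List (List ℕ)}
    (h1 : Bt.stdS N n k c (b :: as) (b :: as) [] [] fw kg T (llen zs) = true)
    (h2 : bnd (comOK e zs (b :: as)) (StdZ.ndW (fun u w => nt (e u w)) zs) = true) (h3 : yOK e p b as = true)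
    (h4 : lall (fun z => nt (e (lapp z z) b)) zs = true) (x : S) (hb : Commute x (ev f b))
    (hx : ∀ d, d ^ p = 1 → Commute d (ev f b) → Commute x d) : x * x ≠ ev f b := by
  obtain ⟨z, m, rfl⟩ := lst he hE h0 hk h1 h2 (List.forall_mem_cons.2
    ⟨hb, fun w m => hx _ (y_gen he h3 w m).1 (y_gen he h3 w m).2⟩)
  exact ev_lapp f z z ▸ he.ne (nt_iff.1 (lall_iff.1 h4 z m))

theorem iv_of {a d i : List ℕ} {zs : List (List ℕ)} (sy : ¬ 5 ^ 2 ∣ Nat.card (centralizer {ev f a}))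
    (h1 : Bt.stdS N n k c [a, d] [a, d] [] [] fw kg T (llen zs) = true)
    (h2 : bnd (comOK e zs [a, d]) (StdZ.ndW (fun u w => nt (e u w)) zs) = true) (h3 : yOK e 5 a [d] = true)
    (h4 : ev f i * ev f d * (ev f i)⁻¹ = (ev f d)⁻¹) (h5 : Commute (ev f i) (ev f a))
    (h6 : lall (fun z => e (wpow (lapp i z) 2) []) zs = true) (y x : S) (ya : Commute y (ev f a))
    (xa : Commute x (ev f a)) (x5 : x ^ 5 = 1) (x1 : x ≠ 1) (iv : y * x * y⁻¹ = x⁻¹) : y * y = 1 := by
  have := Bt.Exact.finite_top hE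
  obtain ⟨d1, d2⟩ := y_gen he h3 d (List.mem_singleton_self _)
  obtain ⟨g, hg, j, q⟩ := syl_p Nat.prime_five sy (mem_centralizer_singleton_iff.2 xa) x1 x5
    (mem_centralizer_singleton_iff.2 d2) d1
  replace hg : Commute g (ev f a) := mem_centralizer_singleton_iff.1 hg
  have a1 : g⁻¹ * y * g * ev f d * (g⁻¹ * y * g)⁻¹ = (ev f d)⁻¹ := by
    have : y * (g * ev f d * g⁻¹) * y⁻¹ = (g * ev f d * g⁻¹)⁻¹ := by rw [← q, ← conj_zpow, iv, inv_zpow]
    calc _ = g⁻¹ * (y * (g * ev f d * g⁻¹) * y⁻¹) * g := by group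
      _ = _ := by rw [this]; group
  obtain ⟨z, m, q⟩ := lst he hE h0 hk h1 h2 (x := (ev f i)⁻¹ * (g⁻¹ * y * g)) (by
    simp only [List.forall_mem_cons]
    refine ⟨h5.inv_left.mul_left ((hg.inv_left.mul_left ya).mul_left hg), ?_, by simp⟩
    rw [← h4] at a1
    calc _ = (ev f i)⁻¹ * (g⁻¹ * y * g * ev f d * (g⁻¹ * y * g)⁻¹) * (g⁻¹ * y * g) := by group
      _ = _ := by rw [a1]; group)
  have := he.one (lall_iff.1 h6 z m)
  rw [ev_wpow, ev_lapp, q, mul_inv_cancel_left, pow_two] at this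
  calc _ = g * (g⁻¹ * y * g * (g⁻¹ * y * g)) * g⁻¹ := by group
    _ = _ := by rw [this]; group

omit h0 in
theorem nb_of {a b d d' : List ℕ} (sa : ¬ 5 ^ 2 ∣ Nat.card (centralizer {ev f a}))
    (sb : ¬ 5 ^ 2 ∣ Nat.card (centralizer {ev f b})) (h1 : yOK e 5 a [d] = true) (h2 : yOK e 5 b [d'] = true)
    (h3 : nt (e d' []) = true)
    (h4 : allFrom (fun j => nt (Nat.beq (XT.fx N n k (wpow d' j)) (XT.fx N n k d))) 0 5 = true)
    (x v : S) (x5 : x ^ 5 = 1) (xa : Commute x (ev f a)) (vb : IsConj (ev f b) v) (xv : Commute x v) : x = 1 := by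
  classical
  have := Bt.Exact.finite_top hE
  by_contra x1
  obtain ⟨d1, d2⟩ := y_gen he h1 d (List.mem_singleton_self _)
  obtain ⟨d3, d4⟩ := y_gen he h2 d' (List.mem_singleton_self _)
  obtain ⟨g, -, j, q⟩ := syl_p Nat.prime_five sa (mem_centralizer_singleton_iff.2 xa) x1 x5
    (mem_centralizer_singleton_iff.2 d2) d1
  obtain ⟨h, rfl⟩ := isConj_iff.1 vb.symm.symm
  have d5 := he.ne_one (nt_iff.1 h3)
  obtain ⟨s, -, m⟩ := syl_p Nat.prime_five sb (mem_centralizer_singleton_iff.2 d4) d5 d3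
    (y := h⁻¹ * (g * ev f d * g⁻¹) * h) (mem_centralizer_singleton_iff.2 (by
      rw [← q]; simpa [mul_assoc] using ((xv.zpow_left j).conj h⁻¹).eq)) (by
      rw [← inv_inv h, inv_inv h⁻¹, conj_pow, conj_pow, d1]; simp)
  have := Fact.mk Nat.prime_five
  obtain ⟨i, hi, q⟩ := Finset.mem_image.1 ((mem_zpowers_iff_mem_range_orderOf (G := S)).1 m)
  rw [orderOf_eq_prime d3 d5, Finset.mem_range] at hi
  have := nt_iff.1 (allFrom_zero.1 h4 i hi)
  rw [XT.fx_conj hE hk (h := s * h⁻¹ * g) (u := d) (by rw [ev_wpow, q]; group)] at this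
  simp at this

end

end CF.Ec
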