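import Cfsg.Agent.Ec.E

/-! Word certificates for the covers. -/

set_option autoImplicit false

namespace CF.Ec

open Cfsg Subgroup CF.Comp CF.Fisch CF.KI CF.Schur CF.Schur.Pc Function

variable {S Γ Ω : Type*} [Group S] [Group Γ] {n k m : ℕ} {D : Comp.Dom Ω n} {N : List Net}
  {f : ℕ → S} {e sm : Fisch.Sm} {c : List Lvl} {H : Subgroup S} {ψ : Γ →* S} {x : ℕ → Γ} {us gs : List (List ℕ)}

theorem map_cm {ξ : Γ →* S} (h : Surjective ξ) : (_root_.commutator Γ).map ξ = _root_.commutator S := by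
  rw [commutator_def, Subgroup.map_commutator, map_top_of_surjective _ h, commutator_def]

theorem perf (p : _root_.commutator Γ = ⊤) (φ : Γ ⧸ center Γ ≃* S) : _root_.commutator S = ⊤ := by
  rw [← map_cm (Recog.stem_center p φ).1.1, p, map_top_of_surjective _ (Recog.stem_center p φ).1.1]

theorem perf_up {ξ : Γ →* S} (h : IsStemExtension ξ) (p : _root_.commutator S = ⊤) : _root_.commutator Γ = ⊤ := by
  rw [← comap_map_eq_self h.2.2, map_cm h.1, p, comap_top]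

theorem rng {X : Type*} [Group X] (ι : X →* S) {ξ : Γ →* X} (h : Surjective ξ) : (ι.comp ξ).range = ι.range := by
  rw [← MonoidHom.map_range, MonoidHom.range_eq_top.2 h, MonoidHom.range_eq_map]

/-- the cover in words -/
structure Cv (ψ : Γ →* S) (x : ℕ → Γ) (f : ℕ → S) (us : List (List ℕ)) (m : ℕ) (sm : Fisch.Sm) : Prop where
  ker : ∀ c, ψ c = 1 → c * c = 1 ∧ ∀ y, Commute c y
  im : ∀ w, lettersLe m [w] = true → ψ (ev x w) = ev f (subst us w)
  eq : ∀ u w, lettersLe m [u] = true → lettersLe m [w] = true → ψ (ev x u) = ψ (ev x w) → sm u w = true → ev x u = ev x w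
  ne : ∀ u w, lettersLe m [u] = true → lettersLe m [w] = true → sm u (lapp w [2 * m + 1]) = true → ev x u ≠ ev x w

theorem cover {X : Type} [Group X] [Finite X] {rels : List (List ℕ)} {g : ℕ → X} (hP : Presents rels m g)
    (pX : _root_.commutator X = ⊤) {Δ : Type} [Group Δ] {y : ℕ → Δ}
    (hs : ∀ u w, sm u w = true → ev y u = ev y w) {tails vs : List (List ℕ)} (h : covOK sm m 1 rels tails vs = true)
    (ht : ∀ j < llen rels, tailAt sm rels tails j = true) (hz : sm [2 * m + 1, 2 * m + 1] [] = true)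
    (z1 : ev y [2 * m + 1] ≠ ev y []) {ι : X →* S} (j : Injective ι) (lk : ∀ w, ι (ev g w) = ev f (subst us w)) :
    ∃ (Γ : Type) (_ : Group Γ) (_ : Finite Γ) (ξ : Γ →* X) (x : ℕ → Γ), IsStemExtension ξ ∧
      _root_.commutator Γ = ⊤ ∧ Cv (ι.comp ξ) x f us m sm := by
  obtain ⟨Γ, _, _, ξ, μ, x, a, b, c, d, q⟩ := exists_cov hP pX hs h ht (by simpa [ev_cons, evL_odd] using hs _ _ hz)
  refine ⟨Γ, _, ‹_›, ξ, x, a, b, fun s t => ?_, fun w l => (congrArg ι (q w l).1).trans (lk w),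
    fun u w l l' t r => d _ _ (j t) ((q u l).2.trans ((hs _ _ r).trans (q w l').2.symm)), fun u w l l' r t => z1 ?_⟩
  · have := j (t.trans (map_one ι).symm)
    exact ⟨c s this, fun y => (mem_center_iff.1 (a.2.1 this) y).symm⟩
  · have := hs _ _ r
    rwa [← (q u l).2, t, (q w l').2, ev_lapp, left_eq_mul] at this

/-- the image of `u` is `w` -/
noncomputable def cv (e : Fisch.Sm) (us : List (List ℕ)) (m : ℕ) (u w : List ℕ) : Bool :=
  bnd (lettersLe m [u]) (e (subst us u) w)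

/-- equality in the cover -/
noncomputable def cq (e sm : Fisch.Sm) (us : List (List ℕ)) (m : ℕ) (u w : List ℕ) : Bool :=
  bnd (cv e us m u (subst us w)) (bnd (lettersLe m [w]) (sm u w))

/-- inequality in the cover -/
noncomputable def cn (sm : Fisch.Sm) (m : ℕ) (u w : List ℕ) : Bool :=
  bnd (lettersLe m [u]) (bnd (lettersLe m [w]) (sm u (lapp w [2 * m + 1])))

namespace Cv

variable (h : Cv ψ x f us m sm)
include h

theorem cn_of {u w : List ℕ} (a : cn sm m u w = true) : ev x u ≠ ev x w :=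
  h.ne u w (brec_and.1 a).1 (brec_and.1 (brec_and.1 a).2).1 (brec_and.1 (brec_and.1 a).2).2

variable (he : IsSm f e)
include he

theorem cv_of {u w : List ℕ} (a : cv e us m u w = true) : ψ (ev x u) = ev f w :=
  (h.im u (brec_and.1 a).1).trans (he.eq (brec_and.1 a).2)

theorem cq_of {u w : List ℕ} (a : cq e sm us m u w = true) : ev x u = ev x w :=
  have b := brec_and.1 (brec_and.1 a).2
  h.eq u w (brec_and.1 (brec_and.1 a).1).1 b.1 ((h.cv_of he (brec_and.1 a).1).trans (h.im w b.1).symm) b.2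

theorem cb_of {u w : List ℕ} (a : bnd (cv e us m u w) (cn sm m (lapp u u) []) = true) :
    ∃ β, ψ β = ev f w ∧ β * β ≠ 1 :=
  ⟨_, h.cv_of he (brec_and.1 a).1, ev_lapp x u u ▸ h.cn_of (brec_and.1 a).2⟩

theorem es_of {a d χ γ δ χ' γ' δ' u u' : List ℕ} {xs xs' : List (List ℕ)} (k : lall (fun t => t)
    [ordOK e 5 d, co e d a, co e d χ', e (lapp χ' χ') a, bnd (yOK e 5 a xs) (e χ' (subst xs u)),
      bnd (yOK e 5 a xs') (e (cw γ' a) (subst xs' u')), e (lapp a (cw γ' a)) (cw δ' a), cv e us m χ χ', cv e us m γ γ',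
      cv e us m δ δ', cn sm m (lapp (lapp χ χ) (cw γ (lapp χ χ))) (cw δ (lapp χ χ))] = true) :
    ∃ (d : S) (χ γ δ : Γ), d ^ 5 = 1 ∧ d ≠ 1 ∧ Commute d (ev f a) ∧ Commute d (ψ χ) ∧ ψ χ * ψ χ = ev f a ∧
      ψ χ ∈ Y 5 (ev f a) ∧ ψ γ * ev f a * (ψ γ)⁻¹ ∈ Y 5 (ev f a) ∧
      ev f a * (ψ γ * ev f a * (ψ γ)⁻¹) = ψ δ * ev f a * (ψ δ)⁻¹ ∧ χ * χ * (γ * (χ * χ) * γ⁻¹) ≠ δ * (χ * χ) * δ⁻¹ := by
  simp only [lall_iff, List.forall_mem_cons] at k
  obtain ⟨k1, k2, k3, k4, k5, k6, k7, k8, k9, k10, k11, -⟩ := k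
  have o := he.ord Nat.prime_five k1
  refine ⟨_, ev x χ, ev x γ, ev x δ, o ▸ pow_orderOf_eq_one (ev f d), fun a => by simp [a] at o, ?_⟩
  rw [h.cv_of he k8, h.cv_of he k9, h.cv_of he k10, ← ev_cw, ← ev_cw, ← ev_lapp, ← ev_lapp, ← ev_lapp, ← ev_cw, ← ev_cw,
    ← ev_lapp]
  exact ⟨he.comm k2, he.comm k3, he.eq k4, y_eq he k5, y_eq he k6, he.eq k7, h.cn_of k11⟩

end Cv

/-- all normal form words -/
noncomputable def allW (gs : List (List ℕ)) : List (List ℕ) :=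
  List.rec (motive := fun _ => List (List ℕ)) [[]] (fun g _ r => lapp r (lmap (lapp g) r)) gs

theorem allW_spec [Finite S] (h : CenR f 2 gs) {y : S} (hy : y ∈ clo f gs) : ∃ w ∈ allW gs, ev f w = y := by
  suffices ∀ i ≤ gs.length, ∀ y ∈ tl f gs i, ∃ w ∈ allW (Fisch.ldrop i gs), ev f w = y from
    this 0 (Nat.zero_le _) y (tl_zero (f := f) ▸ hy)
  intro i hi
  induction hi using Nat.decreasingInduction with
  | self => simp [tl_len, Fisch.ldrop_eq, allW]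
  | of_succ i hi ih =>
    intro y hy
    obtain ⟨a, a2, z, hz, rfl⟩ := h.cover two_pos hi hy
    obtain ⟨w, m, rfl⟩ := ih z hz
    rw [ldrop_cons hi]
    change ∃ w ∈ lapp (allW _) (lmap _ (allW _)), _
    rw [lapp_eq, lmap_eq]
    interval_cases a
    · exact ⟨w, List.mem_append_left _ m, by simp⟩
    · exact ⟨_, List.mem_append_right _ (List.mem_map_of_mem m), by simp [ev_lapp]⟩

theorem r4 [Finite S] (he : IsSm f e) (hS : CenS f 2 gs) {l m : ℕ} (hl : gs.length = l)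
    (hc : Nat.card S = 2 ^ l * m) (hm : ¬ 2 ∣ m) (i : H.index = 2) (o : ev f [3] ∉ H) {q : List ℕ}
    {Es : List (List ℕ × ℕ)} (h : lall2 (fun w E => lany (fun t => t) [e (lapp w w) [], nt (e (wpow w 4) []),
      e (cw E.1 q) w, inOK e (lapp [3] w) E]) (allW gs) Es = true) (y : S) (hy : y ∈ H) (y4 : y ^ 4 = 1)
    (y2 : y * y ≠ 1) : IsConj (ev f q) y := by
  obtain ⟨g, -, hg⟩ := Bt.exists_conj_mem (P := clo f gs) (H := ⊤) le_top Nat.prime_two
    (by rw [card_top, hS.card0, hl, hc]) hm (mem_top y) (a := 2) y4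
  obtain ⟨w, m, a⟩ := allW_spec hS.toCenR hg
  obtain ⟨E, -, b⟩ := lall2_left h m
  simp only [lany_iff, List.mem_cons, List.not_mem_nil, or_false, exists_eq_or_imp, exists_eq_left, nt_iff] at b
  rcases b with b | b | b | b
  · exact (y2 (by simpa [ev_lapp, a, conj_mul] using he.one b)).elim
  · exact (he.ne_one b (by rw [ev_wpow, a, conj_pow, y4]; simp)).elim
  · exact (he.eq b ▸ conj_cw E.1 q).trans (a ▸ (isConj_iff.2 ⟨g, rfl⟩).symm)
  · exact (out_of he i o b (by rw [a]; simp only [mul_mem_iff_of_index_two i, inv_mem_iff]; tauto)).elim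

theorem Md.cv [Finite S] (M : Md S Γ) {K : Subgroup Γ} {v : Γ} (h : K ≤ centralizer {v}) (ha : M.ψ v = M.a)
    (c : Nat.card (centralizer {M.a}) ≤ Nat.card (K.map M.ψ) * 2) (σ : Γ) (a : Commute (M.ψ σ) M.a) : Commute σ v := by
  obtain ⟨o, o1, o2⟩ := M.oa
  have l : K.map M.ψ ≤ M.S0 ⊓ centralizer {M.a} := by
    rintro _ ⟨τ, t, rfl⟩
    exact ⟨⟨τ, rfl⟩, mem_centralizer_singleton_iff.2 (ha ▸ (Commute.map (mem_centralizer_singleton_iff.1 (h t)) _).eq)⟩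
  have b := ((M.S0 ⊓ centralizer {M.a}).subgroupOf (centralizer {M.a})).card_mul_index
  rw [Bt.card_sub_of inf_le_right] at b
  have d : 2 ≤ ((M.S0 ⊓ centralizer {M.a}).subgroupOf (centralizer {M.a})).index :=
    (Nat.two_le_iff _).2 ⟨index_ne_zero_of_finite, fun t => o1
      ((index_eq_one.1 t).ge (mem_top ⟨o, mem_centralizer_singleton_iff.2 o2⟩)).1⟩
  obtain ⟨τ, t, q⟩ := (eq_of_le_of_card_ge l (by nlinarith)).ge ⟨⟨σ, rfl⟩, mem_centralizer_singleton_iff.2 a⟩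
  obtain ⟨z, rfl, -, z2⟩ := M.eq_mul q
  exact Commute.mul_left (mem_centralizer_singleton_iff.1 (h t)) (z2 v)

theorem Md.rt (M : Md S Γ) (a1 : M.a ≠ 1) {χ χ' : Γ} {o : S}
    (R : ∀ x ∈ M.S0, x ^ 4 = 1 → x * x ≠ 1 → IsConj (M.ψ χ) x) (c : M.ψ χ * M.ψ χ = M.a) (o1 : o ∉ M.S0)
    (o2 : Commute o M.a) (c' : M.ψ χ' = o * M.ψ χ * o⁻¹) (q : χ' * χ' = χ * χ)
    (V : ∀ σ, Commute (M.ψ σ) M.a → Commute σ (χ * χ)) (γ : Γ) (h : M.ψ γ * M.ψ γ = M.a) : γ * γ = χ * χ := by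
  have key : ∀ η g, M.ψ η * M.ψ η = M.a → η * η = χ * χ → g ∈ M.S0 → g * M.ψ η * g⁻¹ = M.ψ γ → γ * γ = χ * χ := by
    rintro η _ b d ⟨σ, rfl⟩ t
    rw [← M.sq_eq (x := σ * η * σ⁻¹) (by simpa using t), conj_mul, d, mul_inv_eq_iff_eq_mul]
    refine V σ (mul_inv_eq_iff_eq_mul.1 ?_)
    rw [← b, ← conj_mul, t, h, b]
  obtain ⟨g, t⟩ := isConj_iff.1 (R _ ⟨γ, rfl⟩ (by rw [show 4 = 2 * 2 from rfl, pow_mul, pow_two, pow_two, h, M.aa])
    (h ▸ a1))
  by_cases hg : g ∈ M.S0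
  · exact key χ g c rfl hg t
  · exact key χ' (g * o⁻¹) (by rw [c', conj_mul, c, o2.eq, mul_inv_cancel_right]) q
      (M.i2 _ _ hg (mt inv_mem_iff.1 o1)) (by rw [c', ← t]; group)

theorem em_of [MulAction S Ω] (he : IsSm f e) (hE : Exact D N f c ⊤) (h0 : 0 < n) (hk : n ≤ 2 ^ k) (M : Md S Γ)
    (h : Cv M.ψ x f us m sm) (r1 : M.r = 1) (p3 : M.p = 3) {a θ y σ χ χ2 γ σ' χ' o g u : List ℕ} (ha : M.a = ev f a)
    (i : M.S0.index = 2) (o3 : ev f [3] ∉ M.S0) (R : ∀ x ∈ M.S0, x ^ 4 = 1 → x * x ≠ 1 → IsConj (ev f χ') x)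
    {s : ℕ} (hs : Nat.card (centralizer {ev f a}) = s * 2) {c' : List Lvl} (k1 : Bt.geOK N n c' s = true)
    {fw kg zs ys xs ws vs : List (List ℕ)} {T : Bt.Tr}
    (k2 : Bt.stdS N n k c [a, θ] [a, θ] [] [] fw kg T (llen zs) = true) {E : List ℕ × ℕ} (k3 : lall (fun t => t)
      [bnd (comOK e zs [a, θ]) (StdZ.ndW (fun u w => nt (e u w)) zs),
      lall2 (fun z y => Bool.rec (e (wpow z 6) a) true (e z (lapp y y))) zs ys,
      lall2 (fun w u => cv e us m (subst ws u) w) (cgens c') vs,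
      lall (fun w => cq e sm us m (lapp w (lapp χ χ)) (lapp (lapp χ χ) w)) ws,
      ordOK e 3 θ, co e θ a, cv e us m σ σ', e (cw σ' θ) (winv θ), e (cw g a) σ', cv e us m χ χ', e (lapp χ' χ') a,
      cq e sm us m (lapp σ (lapp χ χ)) (lapp (lapp χ χ) σ), cq e sm us m (cw γ σ) (lapp σ (lapp χ χ)),
      bnd (yOK e 3 a xs) (e y (subst xs u)), e (wpow (lapp y σ') 4) a, nt (e a []), inOK e (lapp [3] o) E, co e o a,
      cv e us m χ2 (cw o χ'), cq e sm us m (lapp χ2 χ2) (lapp χ χ)] = true) : ∃ θ y σ χ γ, EM M θ y σ χ γ := by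
  have := Bt.Exact.finite_top hE
  simp only [lall_iff (f := fun t => t), List.forall_mem_cons, nt_iff] at k3
  obtain ⟨q1, q2, q3, q4, q5, q6, q7, q8, q9, q10, q11, q12, q13, q14, q15, q16, q17, q18, q19, q20, -⟩ := k3
  have o := he.ord Nat.prime_three q5
  have e1 := h.cv_of he q7
  have e2 := h.cv_of he q10
  have e3 : M.ψ (ev x χ) * M.ψ (ev x χ) = M.a := by rw [e2, ← ev_lapp, ha, he.eq q11]
  have e4 := M.rt (χ' := ev x χ2) (ha ▸ he.ne_one q16) (e2 ▸ R) e3 (out_of he i o3 q17) (ha ▸ he.comm q18)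
    (by rw [h.cv_of he q19, e2, ev_cw]) (by simpa only [ev_lapp] using h.cq_of he q20)
    (M.cv (K := clo x ws) (clo_le_centralizer fun w m => by simpa only [ev_lapp] using h.cq_of he (lall_iff.1 q4 w m))
      ((map_mul _ _ _).trans e3) (by
        rw [ha, hs]
        refine Nat.mul_le_mul_right _ (ge_card hE.reps hE.lt (fun w m => ?_) k1)
        obtain ⟨u, -, t⟩ := lall2_left q3 m
        exact ⟨_, ev_subst_mem_clo x ws u, h.cv_of he t⟩))
  refine ⟨ev f θ, ev f y, ev x σ, ev x χ, ev x γ, r1, p3, fun a b s t => (e4 a s).trans (e4 b t).symm,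
    fun z a b d => ?_, o ▸ pow_orderOf_eq_one (ev f θ), fun a => by simp [a] at o, ha ▸ he.comm q6,
    by rw [e1, ← ev_cw, he.eq q8, ev_winv], by rw [e1, ha, ← he.eq q9]; exact conj_cw g a, e3,
    by simpa only [ev_lapp, commute_iff_eq] using h.cq_of he q12, by simpa only [ev_lapp, ev_cw] using h.cq_of he q13,
    ha ▸ y_eq he q14, by rw [e1, ← ev_lapp, ← ev_wpow, ha, he.eq q15], fun w a b d => ?_⟩
  · obtain ⟨g, rfl⟩ := isConj_iff.1 (R z a b d)
    rw [conj_mul, ← e2, e3]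
    exact isConj_iff.2 ⟨g, rfl⟩
  · obtain ⟨z, m, rfl⟩ := lst he hE h0 hk k2 q1 (x := w) (by simpa using ⟨ha ▸ b, d⟩)
    obtain ⟨u, -, t⟩ := lall2_left q2 m
    rcases brec_or.1 t with t | t
    · exact (a (by rw [he.eq t, ev_lapp]; exact M.sq _)).elim
    · rw [← ev_wpow, he.eq t, ha]

theorem ej_of [MulAction S Ω] (he : IsSm f e) (hE : Exact D N f c ⊤) (h0 : 0 < n) (hk : n ≤ 2 ^ k) (M : Md S Γ)
    (p3 : M.p = 3) {a b d i g u : List ℕ} (ha : M.a = ev f a) (hb : M.b = ev f b) {s : ℕ}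
    (hs : Nat.card (centralizer {ev f a}) = s) (sy : ¬ 5 ^ 2 ∣ s) {fw kg zs xs : List (List ℕ)} {T : Bt.Tr}
    (k2 : Bt.stdS N n k c [a, d] [a, d] [] [] fw kg T (llen zs) = true) (k3 : lall (fun t => t)
      [bnd (comOK e zs [a, d]) (StdZ.ndW (fun u w => nt (e u w)) zs), yOK e 5 a [d], nt (e d []),
      bnd (yOK e 3 a xs) (e i (subst xs u)), e (cw g b) i, e (cw i d) (winv d),
      lall (fun z => e (wpow (lapp i z) 2) []) zs] = true) : EJ M := by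
  simp only [lall_iff (f := fun t => t), List.forall_mem_cons, nt_iff] at k3
  obtain ⟨q1, q2, q3, q4, q5, q6, q7, -⟩ := k3
  obtain ⟨d1, d2⟩ := y_gen he q2 d (List.mem_singleton_self _)
  have q6 := he.eq q6
  rw [ev_cw, ev_winv] at q6
  exact ⟨⟨_, _, d1, he.ne_one q3, ha ▸ d2, ha ▸ p3 ▸ y_eq he q4, by rw [hb, ← he.eq q5]; exact conj_cw g b, q6⟩,
    ha ▸ iv_of he hE h0 hk (hs ▸ sy) k2 q1 q2 q6 (Y_comm (y_eq he q4)) q7⟩

theorem md_of [MulAction S Ω] (he : IsSm f e) (hE : Exact D N f c ⊤) (h0 : 0 < n) (hk : n ≤ 2 ^ k) {r p p' : ℕ}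
    (r13 : r = 1 ∨ r = 3) (hp : p.Prime) (hp' : p'.Prime) (c1 : p.Coprime (2 * r)) (c2 : p'.Coprime (2 * r))
    (i : ψ.range.index = 2)
    (o3 : ev f [3] ∉ ψ.range) (kψ : ∀ c, ψ c = 1 → c * c = 1 ∧ ∀ x, Commute c x) {a b : List ℕ}
    (cb : ∃ β, ψ β = ev f b ∧ β * β ≠ 1) (cl : ∀ v, v * v = 1 → v ≠ 1 → IsConj (ev f a) v ∨ IsConj (ev f b) v ∨
      Ou ψ.range r (ev f b) v) {s t : ℕ} (hs : Nat.card (centralizer {ev f a}) = s) (s1 : ¬ p ^ 2 ∣ s)
    (ht : Nat.card (centralizer {ev f b}) = t) (t1 : ¬ p' ^ 2 ∣ t) {xa xb zb fw kg fw' kg' ya yb yr : List (List ℕ)}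
    {T T' : Bt.Tr} (k1 : Bt.stdS N n k c xa xa [] [] fw kg T (llen [[], a]) = true)
    (k2 : Bt.stdS N n k c (b :: xb) (b :: xb) [] [] fw' kg' T' (llen zb) = true) {oa ob ua ub wa wb g u : List ℕ}
    {E Ea Eb : List ℕ × ℕ} (k3 : lall (fun t => t) [e (lapp a a) [], e (lapp b b) [], inOK e a E,
      bnd (inOK e (lapp [3] oa) Ea) (co e oa a), bnd (inOK e (lapp [3] ob) Eb) (co e ob b), cdOK e p a ya ua wa,
      cdOK e p' b yb ub wb, bnd (comOK e [[], a] xa) (StdZ.ndW (fun u w => nt (e u w)) [[], a]), yOK e p a xa,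
      bnd (comOK e zb (b :: xb)) (StdZ.ndW (fun u w => nt (e u w)) zb), yOK e p' b xb,
      lall (fun z => nt (e (lapp z z) b)) zb, bnd (yOK e p a yr) (e (cw g b) (subst yr u))] = true) :
    ∃ M : Md S Γ, M.r = r ∧ M.p = p ∧ M.ψ = ψ ∧ M.a = ev f a ∧ M.b = ev f b := by
  simp only [lall_iff (f := fun t => t), List.forall_mem_cons] at k3
  obtain ⟨q1, q2, q3, q4, q5, q6, q7, q8, q9, q10, q11, q12, q13, -⟩ := k3
  exact ⟨⟨r, p, p', ψ, _, _, r13, fun x y a b => (mul_mem_iff_of_index_two i).2 (iff_of_false a b), kψ,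
    ev_lapp f a a ▸ he.one q1, ev_lapp f b b ▸ he.one q2, in_of he i q3, oc_of he i o3 q4, oc_of he i o3 q5, cl, cb,
    cd_of he hp c1 hs s1 q6, cd_of he hp' c2 ht t1 q7, za_of he hE h0 hk k1 q8 q9,
    zb_of he hE h0 hk k2 q10 q11 q12, _, y_eq he q13, conj_cw g b⟩, rfl, rfl, rfl, rfl, rfl⟩

end CF.Ec
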