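import Cfsg.Agent.Ec.F
import Cfsg.Agent.Ec.J2D
import Cfsg.Agent.Bt.Out.J2
import Cfsg.Agent.Schur.J2

set_option autoImplicit false
set_option maxRecDepth 1000000

namespace CF.Ec.J2

open CF.Comp CF.Fisch CF.KI CF.Schur CF.Schur.Pc Cfsg

theorem h0 : sqOK (lapp Bt.OutJ2.X Bt.OutJ2.X1) 100 7 Bt.OutJ2.π v = true := by decide +kernel
theorem h1 : Bt.evsOK (lapp (lapp Bt.OutJ2.X Bt.OutJ2.X1) [Bt.OutJ2.π]) 100 7 X ws = true := by decide +kernel
theorem h2 : slpOK (lapp X X1) 100 7 W 2 = true := by decide +kernel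
theorem h3 : Bt.geOK (lapp X X1) 100 c (604800 * 2) = true := by decide +kernel
theorem h4 : Bt.evsOK (lapp X X1) 100 7 J23.P2.N us = true := by decide +kernel
theorem e1 : sepOK 100 Ss (lmap Lvl.b c) = true := by decide +kernel
theorem e2 : Nat.beq R (repl 100 (llen Ss)) = true := by decide +kernel
theorem e3 : Nat.beq V (pack 100 Ss) = true := by decide +kernel
theorem s1 : allFrom (cenAt e 2 gs T) 0 8 = true := by decide +kernel
theorem s2 : memOK e gs (cgens cS) uS = true := by decide +kernel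
theorem s3 : Bt.geOK (lapp X X1) 100 cS (2 ^ 8) = true := by decide +kernel
theorem l0 : bnd (blt 0 (llen gs)) (allFrom (entAt e 2 gs gs 0 Y0 Y1 E0) 0 (llen Y0)) = true := by decide +kernel
theorem l1 : bnd (blt 1 (llen gs)) (allFrom (entAt e 2 gs gs 1 Y1 Y2 E1) 0 (llen Y1)) = true := by decide +kernel
theorem l2 : bnd (blt 2 (llen gs)) (allFrom (entAt e 2 gs gs 2 Y2 Y3 E2) 0 (llen Y2)) = true := by decide +kernel
theorem l3 : bnd (blt 3 (llen gs)) (allFrom (entAt e 2 gs gs 3 Y3 Y4 E3) 0 (llen Y3)) = true := by decide +kernel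
theorem l4 : bnd (blt 4 (llen gs)) (allFrom (entAt e 2 gs gs 4 Y4 Y5 E4) 0 (llen Y4)) = true := by decide +kernel
theorem l5 : bnd (blt 5 (llen gs)) (allFrom (entAt e 2 gs gs 5 Y5 Y6 E5) 0 (llen Y5)) = true := by decide +kernel
theorem l6 : bnd (blt 6 (llen gs)) (allFrom (entAt e 2 gs gs 6 Y6 Y7 E6) 0 (llen Y6)) = true := by decide +kernel
theorem l7 : bnd (blt 7 (llen gs)) (allFrom (entAt e 2 gs gs 7 Y7 Y8 E7) 0 (llen Y7)) = true := by decide +kernel
theorem a1 : Bt.stdS (lapp X X1) 100 7 c [a] [a] [] [] aTF aTK aT 3840 = true := by decide +kernel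
theorem a2 : comOK e (cgens ac) [a] = true := by decide +kernel
theorem a3 : Bt.geOK (lapp X X1) 100 ac 3840 = true := by decide +kernel
theorem b1 : Bt.stdS (lapp X X1) 100 7 c [b] [b] [] [] bTF bTK bT 480 = true := by decide +kernel
theorem b2 : comOK e (cgens bc) [b] = true := by decide +kernel
theorem b3 : Bt.geOK (lapp X X1) 100 bc 480 = true := by decide +kernel
theorem k1 : Bt.stdS (lapp X X1) 100 7 c xa xa [] [] xTF xTK xT (llen [[], a]) = true := by decide +kernel
theorem k2 : Bt.stdS (lapp X X1) 100 7 c (b :: xb) (b :: xb) [] [] yTF yTK yT (llen zb) = true := by decide +kernel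
theorem k3 : lall (fun t => t) [e (lapp a a) [], e (lapp b b) [], inOK e a Ei, bnd (inOK e (lapp [3] oa) Ea) (co e oa a),
  bnd (inOK e (lapp [3] ob) Eb) (co e ob b), cdOK e 3 a ya ua wa, cdOK e 3 b yb ub wb,
  bnd (comOK e [[], a] xa) (StdZ.ndW (fun u w => nt (e u w)) [[], a]), yOK e 3 a xa,
  bnd (comOK e zb (b :: xb)) (StdZ.ndW (fun u w => nt (e u w)) zb), yOK e 3 b xb, lall (fun z => nt (e (lapp z z) b)) zb,
  bnd (yOK e 3 a yr) (e (cw gr b) (subst yr ur))] = true := by decide +kernel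
theorem i1 : inOK e [1] Eg = true := by decide +kernel
theorem o2 : ouOK e b c2 c2E c2g 3 c2x c2u c2h = true := by decide +kernel
theorem fin : finOK e gs Y8 [[], a, b, c2] Ts = true := by decide +kernel
theorem j1 : Bt.stdS (lapp X X1) 100 7 c [a, d] [a, d] [] [] dTF dTK dT (llen zs) = true := by decide +kernel
theorem j2 : lall (fun t => t) [bnd (comOK e zs [a, d]) (StdZ.ndW (fun u w => nt (e u w)) zs), yOK e 5 a [d], nt (e d []),
  bnd (yOK e 3 a xi) (e i (subst xi ui)), e (cw gi b) i, e (cw i d) (winv d), lall (fun z => e (wpow (lapp i z) 2) []) zs] = true := by decide +kernel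
theorem j3 : e (subst us β) b = true := by decide +kernel

theorem sq : ev J2.g2 (lapp β β) = J2.ng :=
  (J2.mats7.word _).eq ((by decide +kernel : J2.matW J2.M7 (lapp β β) = J2.negM).symm ▸ J2.rep_ng)

theorem no {G : Type*} [Group G] [Finite G] (hF : IsSimpleGroup (generalizedFittingSubgroup G))
    (hF' : ¬ IsMulCommutative (generalizedFittingSubgroup G)) {L : Subgroup G} (hL : IsStandardSubgroup L)
    (ev2 : 2 ∣ Nat.card (Subgroup.center L)) (φ : L ⧸ Subgroup.center L ≃* Spor.J2) : False := by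
  obtain ⟨hE, hg⟩ := Bt.Exact.fresh Comp.J2.exact (by decide) (fun _ _ => trivial) Bt.OutJ2.h1 (m := 3) rfl Bt.OutJ2.h2
    (Subgroup.card_top.trans Comp.J2.card) Bt.OutJ2.h3
  obtain ⟨hw, ι, j, i, ac⟩ := model hE hg (by decide) Bt.OutJ2.hP h0
  have := Fisch.PG.finite hw
  clear hE
  obtain ⟨f, hE, cH, i, o⟩ := fresh (Fisch.PG.reps hw) (by decide) (by decide) h1 rfl h2 j i (Comp.J2.card ▸ h3)
  have he := isSm_eqM hE.reps (by decide) (Exact.based hE fun _ => trivial) e1 e2 e3
  have hS := cenS_of hE he rfl s1 s2 s3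
  have h := Cl.st he hS (Cl.zero ⊤) l0
  replace h := Cl.st he hS h l1
  replace h := Cl.st he hS h l2
  replace h := Cl.st he hS h l3
  replace h := Cl.st he hS h l4
  replace h := Cl.st he hS h l5
  replace h := Cl.st he hS h l6
  replace h := Cl.st he hS h l7
  have cl := cls he hS (l := 8) rfl (m := 4725) (cH.trans (by rw [Comp.J2.card]; norm_num)) (by norm_num) h fin
  simp only [List.mem_cons, List.not_mem_nil, or_false, exists_eq_or_imp, exists_eq_left] at cl
  have : Finite Spor.twoJ2 := Nat.finite_of_card_ne_zero (by rw [J2.center_eq.2]; decide)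
  have n1 : J2.ng ≠ 1 := (iv2 J2.order_ng).2
  have k := QuotientGroup.ker_mk' (Subgroup.center Spor.twoJ2)
  have hξ : IsStemExtension (QuotientGroup.mk' (Subgroup.center Spor.twoJ2)) := ⟨QuotientGroup.mk'_surjective _, k.le,
    k.le.trans (J2.center_eq.1.le.trans (Subgroup.zpowers_le.2 (sq ▸ ev_mem_commutator J2.g2 (m := 7) (by decide +kernel))))⟩
  replace o := o (in_of he i i1)
  rw [← rng ι hξ.1] at i o
  have ca := (cent_exact hE he (by decide) (by decide) a1 a2 a3).2
  have cb' := (cent_exact hE he (by decide) (by decide) b1 b2 b3).2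
  obtain ⟨M, r, p, hψ, ha, hb⟩ := md_of he hE (by decide) (by decide) (r := 1) (.inl rfl) Nat.prime_three Nat.prime_three
    (by decide) (by decide) i o (fun c t => by
      have m := k.le (j (t.trans (map_one ι).symm))
      refine ⟨?_, fun y => (Subgroup.mem_center_iff.1 m y).symm⟩
      rw [← pow_two, ← J2.order_ng, ← orderOf_dvd_iff_pow_eq_one]
      exact orderOf_dvd_of_mem_zpowers (J2.center_eq.1.le m))
    ⟨ev J2.g2 β, (congrArg ι (map_ev _ _ β)).trans ((link J2.reps0 hw ac hE.reps (by decide) h4 β).trans (he.eq j3)),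
      by rw [← ev_lapp]; exact sq ▸ n1⟩ (fun v s t => (cl v s t).imp_right (Or.imp_right
      ((ou_of he i o (by decide) o2).conj i))) ca (by decide) cb' (by decide) k1 k2 k3
  exact false_of hF hF' hL ev2 φ M (r ▸ Schur.J2.schur) ((Bt.card_out_congr J2.eqv).trans Bt.OutJ2.out) j cH hξ
    (perf_up hξ (perf hL.1.1.commutator_eq_top φ)) hψ (.inl (ej_of he hE (by decide) (by decide) M p ha hb ca (by decide) j1 j2))

end CF.Ec.J2
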