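import Cfsg.Agent.Ec.F
import Cfsg.Agent.Ec.M12D
import Cfsg.Agent.Bt.Out.M12
import Cfsg.Agent.Schur.MatC

set_option autoImplicit false
set_option maxRecDepth 1000000

namespace CF.Ec.M12

open CF.Comp CF.Fisch CF.KI CF.Schur CF.Schur.Pc Cfsg CF.Schur.MatC

noncomputable def sm : Fisch.Sm := lsame ar2 LM12c2 (sameA KM12c2 12 4)

theorem h0 : sqOK (lapp Bt.OutM12.X Bt.OutM12.X1) 24 5 Bt.OutM12.π v = true := by decide +kernel
theorem h1 : Bt.evsOK (lapp (lapp Bt.OutM12.X Bt.OutM12.X1) [Bt.OutM12.π]) 24 5 X ws = true := by decide +kernel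
theorem h2 : slpOK (lapp X X1) 24 5 W 2 = true := by decide +kernel
theorem h3 : Bt.geOK (lapp X X1) 24 c (95040 * 2) = true := by decide +kernel
theorem h4 : Bt.evsOK (lapp X X1) 24 5 NM12 us = true := by decide +kernel
theorem e1 : sepOK 24 Ss (lmap Lvl.b c) = true := by decide +kernel
theorem e2 : Nat.beq R (repl 24 (llen Ss)) = true := by decide +kernel
theorem e3 : Nat.beq V (pack 24 Ss) = true := by decide +kernel
theorem s1 : allFrom (cenAt e 2 gs T) 0 7 = true := by decide +kernel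
theorem s2 : memOK e gs (cgens cS) uS = true := by decide +kernel
theorem s3 : Bt.geOK (lapp X X1) 24 cS (2 ^ 7) = true := by decide +kernel
theorem l0 : bnd (blt 0 (llen gs)) (allFrom (entAt e 2 gs gs 0 Y0 Y1 E0) 0 (llen Y0)) = true := by decide +kernel
theorem l1 : bnd (blt 1 (llen gs)) (allFrom (entAt e 2 gs gs 1 Y1 Y2 E1) 0 (llen Y1)) = true := by decide +kernel
theorem l2 : bnd (blt 2 (llen gs)) (allFrom (entAt e 2 gs gs 2 Y2 Y3 E2) 0 (llen Y2)) = true := by decide +kernel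
theorem l3 : bnd (blt 3 (llen gs)) (allFrom (entAt e 2 gs gs 3 Y3 Y4 E3) 0 (llen Y3)) = true := by decide +kernel
theorem l4 : bnd (blt 4 (llen gs)) (allFrom (entAt e 2 gs gs 4 Y4 Y5 E4) 0 (llen Y4)) = true := by decide +kernel
theorem l5 : bnd (blt 5 (llen gs)) (allFrom (entAt e 2 gs gs 5 Y5 Y6 E5) 0 (llen Y5)) = true := by decide +kernel
theorem l6 : bnd (blt 6 (llen gs)) (allFrom (entAt e 2 gs gs 6 Y6 Y7 E6) 0 (llen Y6)) = true := by decide +kernel
theorem a1 : Bt.stdS (lapp X X1) 24 5 c [a] [a] [] [] aTF aTK aT 384 = true := by decide +kernel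
theorem a2 : comOK e (cgens ac) [a] = true := by decide +kernel
theorem a3 : Bt.geOK (lapp X X1) 24 ac 384 = true := by decide +kernel
theorem b1 : Bt.stdS (lapp X X1) 24 5 c [b] [b] [] [] bTF bTK bT 480 = true := by decide +kernel
theorem b2 : comOK e (cgens bc) [b] = true := by decide +kernel
theorem b3 : Bt.geOK (lapp X X1) 24 bc 480 = true := by decide +kernel
theorem k1 : Bt.stdS (lapp X X1) 24 5 c xa xa [] [] xTF xTK xT (llen [[], a]) = true := by decide +kernel
theorem k2 : Bt.stdS (lapp X X1) 24 5 c (b :: xb) (b :: xb) [] [] yTF yTK yT (llen zb) = true := by decide +kernel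
theorem k3 : lall (fun t => t) [e (lapp a a) [], e (lapp b b) [], inOK e a Ei, bnd (inOK e (lapp [3] oa) Ea) (co e oa a),
  bnd (inOK e (lapp [3] ob) Eb) (co e ob b), cdOK e 3 a ya ua wa, cdOK e 3 b yb ub wb,
  bnd (comOK e [[], a] xa) (StdZ.ndW (fun u w => nt (e u w)) [[], a]), yOK e 3 a xa,
  bnd (comOK e zb (b :: xb)) (StdZ.ndW (fun u w => nt (e u w)) zb), yOK e 3 b xb, lall (fun z => nt (e (lapp z z) b)) zb,
  bnd (yOK e 3 a yr) (e (cw gr b) (subst yr ur))] = true := by decide +kernel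
theorem i1 : inOK e [1] Eg = true := by decide +kernel
theorem o2 : ouOK e b c2 c2E c2g 3 c2x c2u c2h = true := by decide +kernel
theorem fin : finOK e gs Y7 [[], a, b, c2] Ts = true := by decide +kernel
theorem j0 : lall2 (fun w E => lany (fun t => t) [e (lapp w w) [], nt (e (wpow w 4) []), e (cw E.1 χ1) w,
  inOK e (lapp [3] w) E]) (allW gs) Es = true := by decide +kernel
theorem j1 : Bt.geOK (lapp X X1) 24 cH 192 = true := by decide +kernel
theorem j2 : Bt.stdS (lapp X X1) 24 5 c [a, θ] [a, θ] [] [] dTF dTK dT (llen zs) = true := by decide +kernel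
theorem j3 : lall (fun t => t) [bnd (comOK e zs [a, θ]) (StdZ.ndW (fun u w => nt (e u w)) zs),
  lall2 (fun z y => Bool.rec (e (wpow z 6) a) true (e z (lapp y y))) zs ys,
  lall2 (fun w u => cv e us 6 (subst hs u) w) (cgens cH) vs,
  lall (fun w => cq e sm us 6 (lapp w (lapp χ χ)) (lapp (lapp χ χ) w)) hs,
  ordOK e 3 θ, co e θ a, cv e us 6 σ σ1, e (cw σ1 θ) (winv θ), e (cw gσ a) σ1, cv e us 6 χ χ1, e (lapp χ1 χ1) a,
  cq e sm us 6 (lapp σ (lapp χ χ)) (lapp (lapp χ χ) σ), cq e sm us 6 (cw γ σ) (lapp σ (lapp χ χ)),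
  bnd (yOK e 3 a xy) (e y (subst xy uy)), e (wpow (lapp y σ1) 4) a, nt (e a []), inOK e (lapp [3] oa) Ea, co e oa a,
  cv e us 6 χ2 (cw oa χ1), cq e sm us 6 (lapp χ2 χ2) (lapp χ χ)] = true := by decide +kernel
theorem cb : bnd (cv e us 6 β b) (cn sm 6 (lapp β β) []) = true := by decide +kernel

theorem z1 : ev (LM12c2.el ar2) [2 * 6 + 1] ≠ ev (LM12c2.el ar2) [] := fun h => by
  rw [ev_single] at h
  exact absurd (congrArg (fun g => g.left.toAdd 0) h) (by
    show ar2.fn (nth 0 AM12c2 6) (nth 0 BM12c2 6) 0 ≠ 0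
    decide +kernel)

theorem no {G : Type*} [Group G] [Finite G] (hF : IsSimpleGroup (generalizedFittingSubgroup G))
    (hF' : ¬ IsMulCommutative (generalizedFittingSubgroup G)) {L : Subgroup G} (hL : IsStandardSubgroup L)
    (ev2 : 2 ∣ Nat.card (Subgroup.center L)) (φ : L ⧸ Subgroup.center L ≃* Spor.M12) : False := by
  obtain ⟨hE, hg⟩ := Bt.Exact.fresh Mat.gExact (by decide) (fun w _ => ev_mem Mat.gMem w) Bt.OutM12.h1 (m := 3) rfl
    Bt.OutM12.h2 Mat.card_M12 Bt.OutM12.h3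
  have hf := slp_mem (Bt.evs_mem (ws := Bt.OutM12.ws) (fun w _ => ev_mem Mat.gMem w)) Bt.OutM12.W 3
  replace hE := Bt.exact_sub_top hE hf
  replace hg := Bt.clo_sub_top hf hg
  have := Bt.Exact.finite_top hE
  obtain ⟨hw, ι, j, i, ac⟩ := model hE hg (by decide) Bt.OutM12.hP h0
  have := Fisch.PG.finite hw
  clear hE
  obtain ⟨f, hE, cH, i, o⟩ := fresh (Fisch.PG.reps hw) (by decide) (by decide) h1 rfl h2 j i (Mat.card_M12 ▸ h3)
  have he := isSm_eqM hE.reps (by decide) (Exact.based hE fun _ => trivial) e1 e2 e3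
  have hS := cenS_of hE he rfl s1 s2 s3
  have h := Cl.st he hS (Cl.zero ⊤) l0
  replace h := Cl.st he hS h l1
  replace h := Cl.st he hS h l2
  replace h := Cl.st he hS h l3
  replace h := Cl.st he hS h l4
  replace h := Cl.st he hS h l5
  replace h := Cl.st he hS h l6
  have cS : _ = 2 ^ 7 * 1485 := cH.trans (by rw [Mat.card_M12]; norm_num)
  have cl := cls he hS rfl cS (by norm_num) h fin
  simp only [List.mem_cons, List.not_mem_nil, or_false, exists_eq_or_imp, exists_eq_left] at cl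
  have hs := ev_eq_of_lsame (A := ar2) (L := LM12c2) wM12c2 (pf_of_sameA wM12c2 (k := 4) (by decide))
  obtain ⟨Γ, _, _, ξ, x, hξ, q, C⟩ := cover presM12 (perf hL.1.1.commutator_eq_top φ) hs cM12c2 rM12c2
    (by decide +kernel) z1 j (link (Bt.reps_sub mM12.reps mM12.mem) hw ac hE.reps (by decide) h4)
  replace o := o (in_of he i i1)
  rw [← rng ι hξ.1] at i o
  have ca := (cent_exact hE he (by decide) (by decide) a1 a2 a3).2
  have cb' := (cent_exact hE he (by decide) (by decide) b1 b2 b3).2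
  obtain ⟨M, r, p, hψ, ha, hb⟩ := md_of he hE (by decide) (by decide) (r := 1) (.inl rfl) Nat.prime_three Nat.prime_three
    (by decide) (by decide) i o C.ker (C.cb_of he cb) (fun v s t => (cl v s t).imp_right (Or.imp_right
      ((ou_of he i o (by decide) o2).conj i))) ca (by decide) cb' (by decide) k1 k2 k3
  rw [← hψ] at C i o
  exact false_of hF hF' hL ev2 φ M (r ▸ schurM12) Bt.OutM12.out j cH hξ q hψ (.inr (.inr
    (em_of he hE (by decide) (by decide) M C r p ha i o (r4 he hS rfl cS (by norm_num) i o j0) ca j1 j2 j3)))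

end CF.Ec.M12
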