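import Cfsg.Agent.Ec.F
import Cfsg.Agent.Ec.SuzD
import Cfsg.Agent.Bt.Out.Suz
import Cfsg.Agent.Schur.Suz

set_option autoImplicit false
set_option maxRecDepth 1000000

namespace CF.Ec.Suz

open CF.Comp CF.Fisch CF.KI CF.Schur CF.Schur.Pc Cfsg CF.Schur.Suz

noncomputable def sm : Fisch.Sm := gsame 3 5 12 Kc2

theorem h0 : sqOK (lapp Bt.OutSuz.X Bt.OutSuz.X1) 1782 11 Bt.OutSuz.π v = true := by decide +kernel
theorem h1 : Bt.evsOK (lapp (lapp Bt.OutSuz.X Bt.OutSuz.X1) [Bt.OutSuz.π]) 1782 11 X ws = true := by decide +kernel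
theorem h2 : slpOK (lapp X X1) 1782 11 W 2 = true := by decide +kernel
theorem h3 : Bt.geOK (lapp X X1) 1782 c (448345497600 * 2) = true := by decide +kernel
theorem h4 : Bt.evsOK (lapp X X1) 1782 11 Comp.Suz.N0 us = true := by decide +kernel
theorem e1 : sepOK 1782 Ss (lmap Lvl.b c) = true := by decide +kernel
theorem e2 : Nat.beq R (repl 1782 (llen Ss)) = true := by decide +kernel
theorem e3 : Nat.beq V (pack 1782 Ss) = true := by decide +kernel
theorem s1 : allFrom (cenAt e 2 gs T) 0 14 = true := by decide +kernel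
theorem s2 : memOK e gs (cgens cS) uS = true := by decide +kernel
theorem s3 : Bt.geOK (lapp X X1) 1782 cS (2 ^ 14) = true := by decide +kernel
theorem l0 : bnd (blt 0 (llen gs)) (allFrom (entAt e 2 gs gs 0 Y0 Y1 E0) 0 (llen Y0)) = true := by decide +kernel
theorem l1 : bnd (blt 1 (llen gs)) (allFrom (entAt e 2 gs gs 1 Y1 Y2 E1) 0 (llen Y1)) = true := by decide +kernel
theorem l2 : bnd (blt 2 (llen gs)) (allFrom (entAt e 2 gs gs 2 Y2 Y3 E2) 0 (llen Y2)) = true := by decide +kernel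
theorem l3 : bnd (blt 3 (llen gs)) (allFrom (entAt e 2 gs gs 3 Y3 Y4 E3) 0 (llen Y3)) = true := by decide +kernel
theorem l4 : bnd (blt 4 (llen gs)) (allFrom (entAt e 2 gs gs 4 Y4 Y5 E4) 0 (llen Y4)) = true := by decide +kernel
theorem l5 : bnd (blt 5 (llen gs)) (allFrom (entAt e 2 gs gs 5 Y5 Y6 E5) 0 (llen Y5)) = true := by decide +kernel
theorem l6 : bnd (blt 6 (llen gs)) (allFrom (entAt e 2 gs gs 6 Y6 Y7 E6) 0 (llen Y6)) = true := by decide +kernel
theorem l7 : bnd (blt 7 (llen gs)) (allFrom (entAt e 2 gs gs 7 Y7 Y8 E7) 0 (llen Y7)) = true := by decide +kernel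
theorem l8 : bnd (blt 8 (llen gs)) (allFrom (entAt e 2 gs gs 8 Y8 Y9 E8) 0 (llen Y8)) = true := by decide +kernel
theorem l9 : bnd (blt 9 (llen gs)) (allFrom (entAt e 2 gs gs 9 Y9 Y10 E9) 0 (llen Y9)) = true := by decide +kernel
theorem l10 : bnd (blt 10 (llen gs)) (allFrom (entAt e 2 gs gs 10 Y10 Y11 E10) 0 (llen Y10)) = true := by decide +kernel
theorem l11 : bnd (blt 11 (llen gs)) (allFrom (entAt e 2 gs gs 11 Y11 Y12 E11) 0 (llen Y11)) = true := by decide +kernel
theorem l12 : bnd (blt 12 (llen gs)) (allFrom (entAt e 2 gs gs 12 Y12 Y13 E12) 0 (llen Y12)) = true := by decide +kernel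
theorem l13 : bnd (blt 13 (llen gs)) (allFrom (entAt e 2 gs gs 13 Y13 Y14 E13) 0 (llen Y13)) = true := by decide +kernel
theorem a1 : Bt.stdS (lapp X X1) 1782 11 c [a] [a] [] [] aTF aTK aT 6635520 = true := by decide +kernel
theorem a2 : comOK e (cgens ac) [a] = true := by decide +kernel
theorem a3 : Bt.geOK (lapp X X1) 1782 ac 6635520 = true := by decide +kernel
theorem b1 : Bt.stdS (lapp X X1) 1782 11 c [b] [b] [] [] bTF bTK bT 322560 = true := by decide +kernel
theorem b2 : comOK e (cgens bc) [b] = true := by decide +kernel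
theorem b3 : Bt.geOK (lapp X X1) 1782 bc 322560 = true := by decide +kernel
theorem k1 : Bt.stdS (lapp X X1) 1782 11 c xa xa [] [] xTF xTK xT (llen [[], a]) = true := by decide +kernel
theorem k2 : Bt.stdS (lapp X X1) 1782 11 c (b :: xb) (b :: xb) [] [] yTF yTK yT (llen zb) = true := by decide +kernel
theorem k3 : lall (fun t => t) [e (lapp a a) [], e (lapp b b) [], inOK e a Ei, bnd (inOK e (lapp [3] oa) Ea) (co e oa a),
  bnd (inOK e (lapp [3] ob) Eb) (co e ob b), cdOK e 5 a ya ua wa, cdOK e 5 b yb ub wb,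
  bnd (comOK e [[], a] xa) (StdZ.ndW (fun u w => nt (e u w)) [[], a]), yOK e 5 a xa,
  bnd (comOK e zb (b :: xb)) (StdZ.ndW (fun u w => nt (e u w)) zb), yOK e 5 b xb, lall (fun z => nt (e (lapp z z) b)) zb,
  bnd (yOK e 5 a yr) (e (cw gr b) (subst yr ur))] = true := by decide +kernel
theorem i1 : inOK e [1] Eg = true := by decide +kernel
theorem o2 : ouOK e b c2 c2E c2g 5 c2x c2u c2h = true := by decide +kernel
theorem o3 : ouOK e b c3 c3E c3g 5 c3x c3u c3h = true := by decide +kernel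
theorem fin : finOK e gs Y14 [[], a, b, c2, c3] Ts = true := by decide +kernel
theorem j1 : lall (fun t => t) [ordOK e 5 d, co e d a, co e d χ1, e (lapp χ1 χ1) a, bnd (yOK e 5 a x1) (e χ1 (subst x1 u1)),
  bnd (yOK e 5 a x2) (e (cw γ1 a) (subst x2 u2)), e (lapp a (cw γ1 a)) (cw δ1 a), cv e us 7 χ χ1, cv e us 7 γ γ1,
  cv e us 7 δ δ1, cn sm 7 (lapp (lapp χ χ) (cw γ (lapp χ χ))) (cw δ (lapp χ χ))] = true := by decide +kernel
theorem j2 : yOK e 5 a [d] = true := by decide +kernel
theorem j3 : yOK e 5 b [d2] = true := by decide +kernel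
theorem j4 : nt (e d2 []) = true := by decide +kernel
theorem j5 : allFrom (fun j => nt (Nat.beq (XT.fx (lapp X X1) 1782 11 (wpow d2 j)) (XT.fx (lapp X X1) 1782 11 d))) 0 5 = true := by decide +kernel
theorem cb : bnd (cv e us 7 β b) (cn sm 7 (lapp β β) []) = true := by decide +kernel

theorem no {G : Type*} [Group G] [Finite G] (hF : IsSimpleGroup (generalizedFittingSubgroup G))
    (hF' : ¬ IsMulCommutative (generalizedFittingSubgroup G)) {L : Subgroup G} (hL : IsStandardSubgroup L)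
    (ev2 : 2 ∣ Nat.card (Subgroup.center L)) (φ : L ⧸ Subgroup.center L ≃* Spor.Suz) : False := by
  obtain ⟨hE, hg⟩ := Bt.Exact.fresh Comp.Suz.exact (by decide) (fun _ _ => trivial) Bt.OutSuz.h1 (m := 3) rfl Bt.OutSuz.h2
    (Subgroup.card_top.trans Comp.Suz.card) Bt.OutSuz.h3
  obtain ⟨hw, ι, j, i, ac⟩ := model hE hg (by decide) Bt.OutSuz.hP h0
  have := Fisch.PG.finite hw
  clear hE
  obtain ⟨f, hE, cH, i, o⟩ := fresh (Fisch.PG.reps hw) (by decide) (by decide) h1 rfl h2 j i (Comp.Suz.card ▸ h3)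
  have he := isSm_eqM hE.reps (by decide) (Exact.based hE fun _ => trivial) e1 e2 e3
  have hS := cenS_of hE he rfl s1 s2 s3
  have h := Cl.st he hS (Cl.zero ⊤) l0
  replace h := Cl.st he hS h l1
  replace h := Cl.st he hS h l2
  replace h := Cl.st he hS h l3
  replace h := Cl.st he hS h l4
  replace h := Cl.st he hS h l5
  replace h := Cl.st he hS h l6
  replace h := Cl.st he hS h l7
  replace h := Cl.st he hS h l8
  replace h := Cl.st he hS h l9
  replace h := Cl.st he hS h l10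
  replace h := Cl.st he hS h l11
  replace h := Cl.st he hS h l12
  replace h := Cl.st he hS h l13
  have cl := cls he hS (l := 14) rfl (m := 54729675) (cH.trans (by rw [Comp.Suz.card]; norm_num)) (by norm_num) h fin
  simp only [List.mem_cons, List.not_mem_nil, or_false, exists_eq_or_imp, exists_eq_left] at cl
  obtain ⟨Γ, _, _, ξ, x, hξ, q, C⟩ := cover pres (perf hL.1.1.commutator_eq_top φ)
    (ev_eq_of_gsame wc2) (vs := Uc2) (by decide +kernel) rc2 (by decide +kernel)
    (ev_ne_of_gdiff wc2 (i := 0) (j := 0) (by decide +kernel)) j (link Comp.Suz.reps0 hw ac hE.reps (by decide) h4)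
  replace o := o (in_of he i i1)
  rw [← rng ι hξ.1] at i o
  have ca := (cent_exact hE he (by decide) (by decide) a1 a2 a3).2
  have cb' := (cent_exact hE he (by decide) (by decide) b1 b2 b3).2
  obtain ⟨M, r, -, hψ, ha, hb⟩ := md_of he hE (by decide) (by decide) (r := 3) (.inr rfl) Nat.prime_five Nat.prime_five
    (by decide) (by decide) i o C.ker (C.cb_of he cb) (fun v s t => (cl v s t).imp_right (Or.imp_right fun u => u.elim
      ((ou_of he i o (by decide) o2).conj i) ((ou_of he i o (by decide) o3).conj i))) ca (by decide) cb' (by decide) k1 k2 k3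
  exact false_of hF hF' hL ev2 φ M (r ▸ schur) Bt.OutSuz.out j cH hξ q hψ (.inr (.inl ⟨hψ ▸ ha ▸ C.es_of he j1,
    ha ▸ hb ▸ nb_of he hE (by decide) (ca ▸ by decide) (cb' ▸ by decide) j2 j3 j4 j5⟩))

end CF.Ec.Suz
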