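import Cfsg.Agent.Ec.M12
import Cfsg.Agent.Ec.J2
import Cfsg.Agent.Ec.Suz
import Cfsg.Agent.Schur.Co3

/-! Standard subgroups of type `M12`, `J2`, `Co3`, `Suz` have centre of odd order. -/

set_option autoImplicit false

namespace CF.Ec

open Cfsg Subgroup CF.Schur

theorem co3 {L : Type*} [Group L] [Finite L] (p : _root_.commutator L = ⊤) (φ : L ⧸ center L ≃* Spor.Co3) :
    Nat.card (center L) = 1 := by
  obtain ⟨s, k⟩ := Recog.stem_center p φ
  obtain ⟨π, hπ⟩ := HasSchur.exists_surjective Co3.schur (stem_cext s)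
  rw [← k, ← stem_mul s]
  simpa using card_dvd_of_surjective π hπ

theorem even {G : Type*} [Group G] [Finite G] (hF : IsSimpleGroup (generalizedFittingSubgroup G))
    (hF' : ¬ IsMulCommutative (generalizedFittingSubgroup G)) (K : Subgroup G) (hK : IsStandardSubgroup K)
    (hKX : Spor.IsoM12 (K ⧸ center K) ∨ Spor.IsoJ2 (K ⧸ center K) ∨ Spor.IsoCo3 (K ⧸ center K) ∨
      Spor.IsoSuz (K ⧸ center K)) (he : 2 ∣ Nat.card (center K)) : False := by
  rcases hKX with ⟨⟨φ⟩⟩ | ⟨⟨φ⟩⟩ | ⟨⟨φ⟩⟩ | ⟨⟨φ⟩⟩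
  exacts [M12.no hF hF' hK he φ, J2.no hF hF' hK he φ, absurd (co3 hK.1.1.commutator_eq_top φ ▸ he) (by decide),
    Suz.no hF hF' hK he φ]

end CF.Ec
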